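import Groth.Agent.LoccohB.AdjCoprod

/-!
# Right adjoints and a particular coproduct

Variant of `LoccohB.AdjCoprod` where only the maps `F(E k[n]) ⟶ ∐ X i` to one given coproduct are assumed to be finite sums.
-/

set_option autoImplicit false

universe w v u v' u' t t'

open CategoryTheory CategoryTheory.Limits Pretriangulated

namespace Groth.Agent.Dual.H363.AbsCoprod

open Groth.Agent.CohtopA.BrownW Groth.Agent.CohtopA.Compact

variable {D : Type u} [Category.{v} D] [Preadditive D]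
  {D' : Type u'} [Category.{v'} D'] [Preadditive D']

lemma exists_finset_sum {F : D ⥤ D'} {G : D' ⥤ D} (adj : F ⊣ G) [G.Additive] {K : D}
    {ι : Type t'} {X : ι → D'} {c : Cofan X}
    (hK : ∀ f : F.obj K ⟶ c.pt, IsFiniteSum c f)
    (f : K ⟶ G.obj c.pt) :
    ∃ (s : Finset ι) (g : ∀ i, K ⟶ G.obj (X i)), f = ∑ i ∈ s, g i ≫ G.map (c.inj i) := by
  obtain ⟨s, g, hg⟩ := hK ((adj.homEquiv _ _).symm f)
  refine ⟨s, fun i => adj.homEquiv _ _ (g i), ?_⟩
  rw [← (adj.homEquiv _ _).apply_symm_apply f, hg]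
  simp only [Adjunction.homEquiv_unit, Functor.map_sum, Preadditive.comp_sum, Functor.map_comp,
    Category.assoc]

lemma bijective_comp_desc {F : D ⥤ D'} {G : D' ⥤ D} (adj : F ⊣ G) [G.Additive] {K : D}
    (hK : IsCompactW.{w} K) {ι : Type t'} [Small.{w} ι] {X : ι → D'}
    {c : Cofan X} (hc : IsColimit c) (hK' : ∀ f : F.obj K ⟶ c.pt, IsFiniteSum c f)
    {c' : Cofan (fun i => G.obj (X i))} (hc' : IsColimit c')
    (j : c'.pt ⟶ G.obj c.pt) (hj : ∀ i, c'.inj i ≫ j = G.map (c.inj i)) :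
    Function.Bijective (fun f : K ⟶ c'.pt => f ≫ j) := by
  classical
  constructor
  · intro f₁ f₂ h
    rw [← sub_eq_zero]
    dsimp only at h
    have h' : (f₁ - f₂) ≫ j = 0 := by rw [Preadditive.sub_comp, h, sub_self]
    obtain ⟨s, hs, hs'⟩ := IsFiniteSum.eq_sum_proj hc' (isFiniteSum_of_isCompactW hK hc' (f₁ - f₂))
    rw [hs']
    refine Finset.sum_eq_zero (fun i hi => ?_)
    have h1 : ((f₁ - f₂) ≫ j) ≫ G.map (proj hc i) = (f₁ - f₂) ≫ proj hc' i := by
      rw [Category.assoc]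
      congr 1
      refine Cofan.IsColimit.hom_ext hc' _ _ (fun k => ?_)
      rw [← Category.assoc, hj, ← Functor.map_comp]
      by_cases hki : k = i
      · subst hki
        rw [inj_proj_self, inj_proj_self, CategoryTheory.Functor.map_id]
      · rw [inj_proj_of_ne hc k i hki, inj_proj_of_ne hc' k i hki, Functor.map_zero]
    rw [← h1, h', zero_comp, zero_comp]
  · intro f
    obtain ⟨s, g, hg⟩ := exists_finset_sum adj hK' f
    refine ⟨∑ i ∈ s, g i ≫ c'.inj i, ?_⟩
    dsimp only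
    rw [hg, Preadditive.sum_comp]
    exact Finset.sum_congr rfl (fun i _ => by rw [Category.assoc, hj])

/-- If the maps from `F(E k[n])` to the coproduct are finite sums then `G` preserves this coproduct. -/
theorem nonempty_isColimit_of_adj [HasZeroObject D] [HasShift D ℤ]
    [∀ n : ℤ, (shiftFunctor D n).Additive] [Pretriangulated D]
    {κ : Type t} (E : κ → D) (hE : ∀ k, IsCompactW.{w} (E k)) (hE' : CohDer.Generates E)
    {F : D ⥤ D'} {G : D' ⥤ D} (adj : F ⊣ G) [G.Additive] {ι : Type t'} [Small.{w} ι]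
    [HasColimitsOfShape (Discrete ι) D] {X : ι → D'} {c : Cofan X} (hc : IsColimit c)
    (hF : ∀ (k : κ) (n : ℤ) (f : F.obj ((E k)⟦n⟧) ⟶ c.pt), IsFiniteSum c f) :
    Nonempty (IsColimit (Cofan.mk (G.obj c.pt) (fun i => G.map (c.inj i)))) := by
  let c' : Cofan (fun i => G.obj (X i)) := Cofan.mk (∐ fun i => G.obj (X i)) (Sigma.ι _)
  have hc' : IsColimit c' := coproductIsCoproduct _
  let j : c'.pt ⟶ G.obj c.pt := Sigma.desc (fun i => G.map (c.inj i))
  have hj : ∀ i, c'.inj i ≫ j = G.map (c.inj i) := fun i => by simp [c', j, Cofan.inj]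
  have : IsIso j := isIso_of_generates E hE' j
    (fun k n => bijective_comp_desc adj (isCompactW_shift (hE k) n) hc (hF k n) hc' j hj)
  refine ⟨IsColimit.ofIsoColimit hc' (Cofan.ext (asIso j) (fun i => ?_))⟩
  exact hj i

end Groth.Agent.Dual.H363.AbsCoprod
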