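import Groth.Agent.Dual.H363.AbsCoprod
import Groth.Agent.LoccohB.AffSupp
import Groth.Agent.PerfA.HomologyCoprod

/-!
# The right adjoint of `Rf_*`, `f` proper, commutes with uniformly bounded below coproducts

`f : X ⟶ Y` proper, `Y` Noetherian, `a` right adjoint of `Rf_* : D_QCoh(X) ⥤ D_QCoh(Y)`.
* `isFiniteSum_of_isPseudoCoherentD`: pseudo-coherent objects are compact with respect to uniformly bounded below
  families;
* `nonempty_isColimit`: if `N j` is a family of objects of `D_QCoh(Y)` which are `≥ c` for all `j`, then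
  `a (∐ N j) = ∐ a (N j)`.
-/

set_option autoImplicit false

universe t u

open CategoryTheory CategoryTheory.Limits AlgebraicGeometry Pretriangulated

attribute [local instance] HasDerivedCategory.standard

namespace Groth.Agent.Dual.H363.BddCoprod

open LoccohB.AffSupp LoccohB.RightAdj LoccohB.RightAdj2 CohtopA.BrownW CohtopA.Compact PerfA.Restrict
  LoccohB.DQCohTri

variable {X Y : Scheme.{u}}

lemma isZero_of_isColimit {C : Type*} [Category* C] [HasZeroMorphisms C] {J : Type*} [Category* J]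
    {F : J ⥤ C} {c : Cocone F} (hc : IsColimit c) (h : ∀ j, IsZero (F.obj j)) : IsZero c.pt :=
  (IsZero.iff_id_eq_zero _).2 (hc.hom_ext fun j => (h j).eq_of_src _ _)

/-- Coproducts of uniformly bounded below objects of `D_QCoh` are bounded below. -/
lemma isGE_of_isColimit {J : Type u} {N : J → DCoh.DQCoh X} {t : Cofan N} (ht : IsColimit t)
    (c : ℤ) (hN : ∀ (j : J) (i : ℤ), i < c → IsZero (DCoh.HD (N j).obj i)) (i : ℤ) (hi : i < c) :
    IsZero (DCoh.HD t.pt.obj i) := by
  have h1 := isColimitOfPreserves (ObjectProperty.ι (DCoh.IsQCohD (X := X))) ht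
  have h2 := isColimitOfPreserves (DerivedCategory.homologyFunctor X.Modules i) h1
  exact isZero_of_isColimit h2 (fun j => hN j.as i hi)

lemma isGE_of_isColimit' {J : Type t} [Small.{u} J] {N : J → DCoh.DQCoh X} {t : Cofan N}
    (ht : IsColimit t)
    (c : ℤ) (hN : ∀ (j : J) (i : ℤ), i < c → IsZero (DCoh.HD (N j).obj i)) (i : ℤ) (hi : i < c) :
    IsZero (DCoh.HD t.pt.obj i) := by
  let e : Discrete (Shrink.{u} J) ≌ Discrete J := Discrete.equivalence (equivShrink J).symm
  have ht' : IsColimit (t.whisker e.functor) := (IsColimit.whiskerEquivalenceEquiv e) ht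
  have h1 := isColimitOfPreserves (ObjectProperty.ι (DCoh.IsQCohD (X := X))) ht'
  have h2 := isColimitOfPreserves (DerivedCategory.homologyFunctor X.Modules i) h1
  exact isZero_of_isColimit h2 (fun j => hN _ i hi)

/-- Maps from a pseudo-coherent object to a uniformly bounded below coproduct are finite sums. -/
theorem isFiniteSum_of_isPseudoCoherentD [CompactSpace Y] [QuasiSeparatedSpace Y]
    (L : DCoh.DQCoh Y) (hL : ∀ m : ℤ, DCoh.IsPseudoCoherentD m L.obj)
    {J : Type t} [Small.{u} J] {N : J → DCoh.DQCoh Y} {t : Cofan N} (ht : IsColimit t)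
    (c : ℤ) (hN : ∀ (j : J) (i : ℤ), i < c → IsZero (DCoh.HD (N j).obj i)) (f : L ⟶ t.pt) :
    IsFiniteSum t f := by
  obtain ⟨r, hr⟩ := S1103.result Y Set.univ isClosed_univ (by simp)
  obtain ⟨P, α, hP, -, h₁, h₂⟩ := hr (c - 1) L.obj L.property (hL _) (fun _ _ => Set.subset_univ _)
  obtain ⟨C, β, γ, hT⟩ := distinguished_cocone_triangle α
  have hC : C.IsLE (c - 2) := by
    have := isLE_cone α β γ hT (c - 1) h₁ h₂
    have h : c - 1 - 1 = c - 2 := by ring
    rwa [h] at this
  have hC' : (C⟦(-1 : ℤ)⟧).IsLE (c - 1) :=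
    (DerivedCategory.TStructure.t : Triangulated.TStructure (DCoh.D Y)).isLE_shift C (c - 2) (-1)
      (c - 1) (by ring)
  let P' : DCoh.DQCoh Y := ⟨P, LoccohB.PerfQCoh.isQCohD_of_isPerfect hP⟩
  let α' : P' ⟶ L := ObjectProperty.homMk α
  have hP' := isCompactW_of_isPerfect P' hP
  obtain ⟨s, g, hg⟩ := isFiniteSum_of_isCompactW hP' ht (α' ≫ f)
  have lift : ∀ i, ∃ l : L ⟶ N i, g i = α' ≫ l := by
    intro i
    have h0 : (Triangle.mk α β γ).invRotate.mor₁ ≫ (g i).hom = 0 :=
      LoccohB.DQCohBasic.hom_eq_zero_of_isLE_of_isGE _ (c - 1) c (by omega)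
        (fun j hj => (DerivedCategory.isLE_iff (C⟦(-1 : ℤ)⟧) (c - 1)).1 hC' j hj) (hN i)
    obtain ⟨l, hl⟩ := Triangle.yoneda_exact₂ _ (inv_rot_of_distTriang _ hT) (g i).hom h0
    refine ⟨ObjectProperty.homMk l, ?_⟩
    ext
    exact hl
  choose l hl using lift
  refine ⟨s, l, ?_⟩
  rw [← sub_eq_zero]
  have h3 : α ≫ (f - ∑ i ∈ s, l i ≫ t.inj i).hom = 0 := by
    have h4 : α' ≫ (f - ∑ i ∈ s, l i ≫ t.inj i) = 0 := by
      rw [Preadditive.comp_sub, hg, Preadditive.comp_sum, sub_eq_zero]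
      exact Finset.sum_congr rfl (fun i _ => by rw [hl i, Category.assoc])
    exact congr_arg (fun f => f.hom) h4
  obtain ⟨δ, hδ⟩ := Triangle.yoneda_exact₂ _ hT _ h3
  have hδ0 : δ = 0 := LoccohB.DQCohBasic.hom_eq_zero_of_isLE_of_isGE δ (c - 2) c (by omega)
    (fun i hi => (DerivedCategory.isLE_iff C (c - 2)).1 hC i hi) (isGE_of_isColimit' ht c hN)
  ext
  rw [hδ, hδ0, comp_zero]
  rfl

/-- **`a` commutes with uniformly bounded below coproducts.** -/
theorem nonempty_isColimit [IsNoetherian Y] (f : X ⟶ Y) [IsProper f] [DCoh.HasRpush f]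
    (h : ∀ K : DCoh.D X, DCoh.IsQCohD K → DCoh.IsQCohD ((DCoh.Rpush f).obj K))
    (a : DCoh.DQCoh Y ⥤ DCoh.DQCoh X)
    (adj : (ObjectProperty.lift DCoh.IsQCohD (ObjectProperty.ι DCoh.IsQCohD ⋙ DCoh.Rpush f)
      (fun K => h K.obj K.property)) ⊣ a)
    {J : Type t} [Small.{u} J] {N : J → DCoh.DQCoh Y} {t : Cofan N} (ht : IsColimit t)
    (c : ℤ) (hN : ∀ (j : J) (i : ℤ), i < c → IsZero (DCoh.HD (N j).obj i)) :
    Nonempty (IsColimit (Cofan.mk (a.obj t.pt) (fun j => a.map (t.inj j)))) := by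
  have := isNoetherian_of_isProper f
  obtain ⟨P, hP, hP', hP''⟩ := exists_compact_generator X
  have : a.Additive := adj.right_adjoint_additive
  have : HasColimitsOfShape (Discrete J) (DCoh.DQCoh X) :=
    hasColimitsOfShape_of_equivalence (Discrete.equivalence (equivShrink.{u} J).symm)
  refine AbsCoprod.nonempty_isColimit_of_adj (fun _ : PUnit.{u + 1} => P) (fun _ => hP') hP''
    adj ht (fun _ n φ => ?_)
  exact isFiniteSum_of_isPseudoCoherentD _
    (fun m => isPseudoCoherentD_Rpush f h _ (isPerfect_shift_DQCoh hP n) m) ht c hN φ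

end Groth.Agent.Dual.H363.BddCoprod
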