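import Groth.Agent.LoccohB.HomBC2
import Groth.Agent.LoccohB.FullSubTri
import Groth.Agent.LoccohB.LBC
import Mathlib.Algebra.Homology.DerivedCategory.SingleTriangle
import Mathlib.Algebra.Homology.DerivedCategory.TStructure
import Mathlib.Algebra.Homology.DerivedCategory.Ext.EnoughProjectives
import Mathlib.CategoryTheory.Abelian.Projective.Dimension

/-!
# Projective dimension and upper bounds

* `hom_eq_zero`: if `pd M ≤ n`, there are no maps `M ⟶ K` for `K ∈ D^{< -n}`;
* `isLE_radj`: the right adjoint of restriction of scalars along `P → A` maps `D^{≤ m}(P)` to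
  `D^{≤ m + n}(A)` if `A` has projective dimension `≤ n` over `P`.
-/

set_option autoImplicit false

universe w v u

open CategoryTheory Category Limits Pretriangulated DerivedCategory

attribute [local instance] HasDerivedCategory.standard

namespace Groth.Agent.Dual.H363.PdBound

section Abs

variable {C : Type u} [Category.{v} C] [Abelian C] [EnoughProjectives C]

theorem hom_eq_zero (n : ℕ) : ∀ (M : C) [HasProjectiveDimensionLE M n] (K : DerivedCategory C) (m : ℤ)
    [K.IsLE m] (_ : m < -(n : ℤ)) (f : (singleFunctor C 0).obj M ⟶ K), f = 0 := by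
  induction n with
  | zero =>
    intro M hM K m _ hm f
    have hP : Projective M := by rwa [projective_iff_hasProjectiveDimensionLE_zero]
    obtain ⟨L, hL, ⟨e⟩⟩ := K.exists_iso_Q_obj_of_isLE m
    rw [← cancel_mono e.hom, zero_comp]
    exact from_singleFunctor_obj_eq_zero_of_projective _ m (by simpa using hm)
  | succ n ih =>
    intro M hM K m _ hm f
    let π := Projective.π M
    let S : ShortComplex C := ShortComplex.mk (kernel.ι π) π (kernel.condition π)
    have hS : S.ShortExact := { exact := ShortComplex.exact_kernel π }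
    have hM' : HasProjectiveDimensionLE (kernel π) n :=
      (hS.hasProjectiveDimensionLT_X₃_iff n (inferInstanceAs (Projective (Projective.over M)))).1 hM
    have h0 : (singleFunctor C 0).map π ≫ f = 0 := by
      obtain ⟨L, hL, ⟨e⟩⟩ := K.exists_iso_Q_obj_of_isLE m
      rw [← cancel_mono e.hom, zero_comp]
      exact from_singleFunctor_obj_eq_zero_of_projective (P := Projective.over M) _ m
        (by push_cast at hm; lia)
    obtain ⟨g, hg⟩ := Triangle.yoneda_exact₃ _ hS.singleTriangle_distinguished f h0
    have hg0 : g = 0 := by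
      refine LoccohB.FullSubTri.hom_shift_eq_zero (A := (singleFunctor C 0).obj (kernel π)) (B := K)
        (1 : ℤ) (fun f' => ?_) g
      have : (K⟦(-1 : ℤ)⟧).IsLE (m + 1) :=
        (TStructure.t : Triangulated.TStructure (DerivedCategory C)).isLE_shift K m (-1) (m + 1)
          (by ring)
      exact ih (kernel π) (K⟦(-1 : ℤ)⟧) (m + 1) (by push_cast at hm; lia) f'
    rw [hg, hg0, comp_zero]
    rfl

end Abs

section Radj

variable {P A : Type u} [CommRing P] [CommRing A] (φ : P →+* A)

open LoccohB.DBase in
theorem isLE_radj {R : Dual.D P ⥤ Dual.D A} (adj : DRing.restrictD φ ⊣ R) (n : ℕ)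
    [HasProjectiveDimensionLE ((ModuleCat.restrictScalars.{u} φ).obj (ModuleCat.of A A)) n]
    (K : Dual.D P) (m : ℤ) [K.IsLE m] : (R.obj K).IsLE (m + n) := by
  rw [isLE_iff]
  intro i hi
  rw [LoccohB.HomBC.isZero_homology_iff]
  refine (homEquivHD i (R.obj K)).toEquiv.subsingleton_congr.1 ?_
  refine (adj.homEquiv _ _).subsingleton_congr.1 ?_
  let e : ((singleFunctor (ModuleCat.{u} P) 0).obj
      ((ModuleCat.restrictScalars.{u} φ).obj (ModuleCat.of A A)))⟦-i⟧ ≅
        (DRing.restrictD φ).obj (sg A i A) :=
    ((singleFunctors (ModuleCat.{u} P)).shiftIso (-i) i 0 (by simp)).app _ ≪≫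
      (((ModuleCat.restrictScalars.{u} φ).mapDerivedCategorySingleFunctor i).app
        (ModuleCat.of A A)).symm
  have key : ∀ f : (DRing.restrictD φ).obj (sg A i A) ⟶ K, f = 0 := by
    intro f
    rw [← cancel_epi e.hom, comp_zero]
    refine LoccohB.FullSubTri.hom_shift_eq_zero (-i) (fun g => ?_) _
    have : (K⟦-(-i)⟧).IsLE (m - i) :=
      (TStructure.t : Triangulated.TStructure (DerivedCategory (ModuleCat.{u} P))).isLE_shift K m
        (-(-i)) (m - i) (by ring)
    exact hom_eq_zero n _ _ (m - i) (by lia) g
  exact ⟨fun f g => (key f).trans (key g).symm⟩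

end Radj

end Groth.Agent.Dual.H363.PdBound
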