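import Groth.Agent.Dual.H363.GoodFun
import Groth.Agent.Dual.H363.PdBound
import Groth.Agent.LoccohB.AdMain
import Groth.Agent.Flat2H.TorDimPoly

/-!
# Upper bounds for `a(-)` on an affine open of finite tor dimension

`p : P ⟶ Y` proper, `Y` Noetherian, `a` the right adjoint of `Rp_*` on `D_QCoh`, `Spec R ⊆ Y` open,
`Spec B ⊆ P` open over `Spec R` with `B` of finite type and finite tor dimension over `R`.  Then the objects
`a(Rj_* N~)|_{Spec B}`, `N` an `R`-module, are uniformly bounded above.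
-/

set_option autoImplicit false

universe u

open CategoryTheory Category Limits AlgebraicGeometry Pretriangulated DerivedCategory

attribute [local instance] HasDerivedCategory.standard

namespace Groth.Agent.Dual.H363.Bound

open LoccohB LoccohB.LocAdj PerfA.Restrict LoccohB.AdBound LoccohB.AdAffine LoccohB.AdStruct
  LoccohB.DBase LocalIso GoodFun Ega1.ADualUniv Ega1.ADualOpen Dcoh.DerSch
open Groth.Agent.PerfA.PerfLocal (restrictDComp restrictDCongr)

lemma isLE_of_tilde {P : CommRingCat.{u}} (M : DerivedCategory (ModuleCat.{u} P)) (c : ℤ)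
    (h : ((tD P).obj M).IsLE c) : M.IsLE c := by
  rw [isLE_iff] at h ⊢
  intro i hi
  have h1 := (h i hi).of_iso ((PerfA.ExactD.mapHomology (tilde.functor P) i).app M).symm
  exact isZero_of_faithful (tilde.functor P) h1

lemma exists_tilde {P : CommRingCat.{u}} (K : DCoh.D (Spec P)) (hK : DCoh.IsQCohD K) :
    ∃ K₀, Nonempty ((tD P).obj K₀ ≅ K) := by
  obtain ⟨K₀, ⟨e⟩⟩ := ((S0997.result P).2.2 K).1 hK
  exact ⟨K₀, ⟨e⟩⟩

/-- `π^!` maps `D^{≤ c}` to `D^{≤ c - n}` for `π : P^n_R ⟶ Spec R`. -/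
theorem isLE_projSpace (n : ℕ) (R : Type u) [CommRing R] [IsNoetherianRing R]
    [DCoh.HasRpush (CohB1.ProjSpace.toSpec n R)]
    (K₀ : DerivedCategory (ModuleCat.{u} (CommRingCat.of R))) (c : ℤ) [K₀.IsLE c]
    {L : DCoh.D (CohB1.ProjSpace n R)}
    (hL : Ega1.ADualUniv.Univ (CohB1.ProjSpace.toSpec n R) ((tD (CommRingCat.of R)).obj K₀) L) :
    L.IsLE (c + (-(n : ℤ))) := by
  have : IsProper (CohB1.ProjSpace.toSpec n R) := Ega3B.ProjProper.isProper_toSpec n R
  have : IsNoetherianRing (CommRingCat.of R) := ‹_›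
  have hP : IsNoetherian (CohB1.ProjSpace n R) :=
    isNoetherian_of_finiteType (CohB1.ProjSpace.toSpec n R)
  have hf : ∀ N : DCoh.D (CohB1.ProjSpace n R), DCoh.IsQCohD N →
      DCoh.IsQCohD ((DCoh.Rpush (CohB1.ProjSpace.toSpec n R)).obj N) :=
    fun N hN => S0998.result (CohB1.ProjSpace.toSpec n R) N hN
  have := S1766.result _ _ (CohB1.ProjSpace.toSpec n R) hf
  set F : DCoh.DQCoh (CohB1.ProjSpace n R) ⥤ DCoh.DQCoh (Spec (CommRingCat.of R)) :=
    ObjectProperty.lift DCoh.IsQCohD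
    (ObjectProperty.ι DCoh.IsQCohD ⋙ DCoh.Rpush (CohB1.ProjSpace.toSpec n R))
      (fun K => hf K.obj K.property) with hF
  let a := F.rightAdjoint
  let adj : F ⊣ a := Adjunction.ofIsLeftAdjoint F
  obtain ⟨_, _, -⟩ := RpushTri.exists_isTriangulated_Rpush (CohB1.ProjSpace.toSpec n R)
  let : a.CommShift ℤ := adj.rightAdjointCommShift ℤ
  have : adj.CommShift ℤ := adj.commShift_of_leftAdjoint ℤ
  have : a.IsTriangulated := adj.isTriangulated_rightAdjoint
  have : ∀ J : Type u, PreservesColimitsOfShape (Discrete J) a := fun J =>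
    AdPnCoprod294.preservesCoproducts_projSpace n R hf a adj J
  obtain ⟨-, h2⟩ := AdPn704.aO_coh n R hf _ adj ((G (CommRingCat.of R)).obj (sg R 0 R))
    ⟨AdProj.isoO (CommRingCat.of R)⟩
  obtain ⟨e⟩ := (univ_of_adj adj ((G (CommRingCat.of R)).obj K₀)).unique hL
  have h3 := isLE_Φ a (-(n : ℤ)) h2 K₀ c
  exact (TStructure.t : Triangulated.TStructure (DCoh.D (CohB1.ProjSpace n R))).isLE_of_iso
    (X := (Φ a).obj K₀) e _

/-- The restriction of scalars of `B`. -/
lemma hasProjectiveDimensionLE_restrict {P B : Type u} [CommRing P] [CommRing B] (φ : P →+* B) (d : ℕ)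
    (h : letI := φ.toAlgebra; HasProjectiveDimensionLE (ModuleCat.of P B) d) :
    HasProjectiveDimensionLE ((ModuleCat.restrictScalars.{u} φ).obj (ModuleCat.of B B)) d := by
  let _ := φ.toAlgebra
  let e : ModuleCat.of P B ≅ (ModuleCat.restrictScalars.{u} φ).obj (ModuleCat.of B B) :=
    (LinearEquiv.toModuleIso
      { AddEquiv.refl B with
        map_smul' := fun r x => (Algebra.smul_def r x : _) } :
      ModuleCat.of P B ≅ ModuleCat.of P ((ModuleCat.restrictScalars.{u} φ).obj (ModuleCat.of B B)))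
  exact hasProjectiveDimensionLT_of_iso e (d + 1)

variable {X P Y : Scheme.{u}} [IsNoetherian Y]

theorem exists_bound (p : P ⟶ Y) [IsProper p] [DCoh.HasRpush p] (h : Pres p)
    (a : DCoh.DQCoh Y ⥤ DCoh.DQCoh P) (adj : Rq p h ⊣ a)
    {R B : CommRingCat.{u}} (j : Spec R ⟶ Y) [IsOpenImmersion j] [DCoh.HasRpush j] (hj : Pres j)
    (k : Spec B ⟶ P) [IsOpenImmersion k] (φ : R ⟶ B) (hφ : Spec.map φ ≫ j = k ≫ p)
    (hft : φ.hom.FiniteType) (hperf : letI := φ.hom.toAlgebra; DRing.HasFiniteTorDim R B) :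
    ∃ b : ℤ, ∀ N : ModuleCat.{u} R, ((restrictD k).obj (a.obj ((ψ j hj).obj
      ((singleFunctor (ModuleCat.{u} R) 0).obj N))).obj).IsLE b := by
  have hRn : IsNoetherian (Spec R) := isNoetherian_of_finiteType j
  have hR' : IsNoetherianRing R := by
    have := isNoetherian_Spec (R := R)
    exact this.1 hRn
  let _ : Algebra R B := φ.hom.toAlgebra
  have hft' : Algebra.FiniteType R B := hft
  obtain ⟨n, θ, hθ⟩ := Algebra.FiniteType.iff_quotient_mvPolynomial''.mp hft'
  let Q := CommRingCat.of (MvPolynomial (Fin n) R)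
  let φ' : Q ⟶ B := CommRingCat.ofHom θ.toRingHom
  have hφ' : Function.Surjective φ'.hom := hθ
  have hcl : IsClosedImmersion (Spec.map φ') := IsClosedImmersion.spec_of_surjective φ' hφ'
  have : IsNoetherianRing Q := inferInstanceAs (IsNoetherianRing (MvPolynomial (Fin n) R))
  -- the projective dimension
  obtain ⟨d, hd⟩ : ∃ d : ℕ, HasProjectiveDimensionLE
      ((ModuleCat.restrictScalars.{u} φ'.hom).obj (ModuleCat.of B B)) d := by
    let _ : Algebra (MvPolynomial (Fin n) R) B := θ.toRingHom.toAlgebra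
    have : IsScalarTower R (MvPolynomial (Fin n) R) B :=
      IsScalarTower.of_algebraMap_eq (fun r => (θ.commutes r).symm)
    obtain ⟨d, hd⟩ := Flat2H.TorDimPoly.hasFiniteTorDim_mvPolynomial n B hperf
    have : Module.Finite (MvPolynomial (Fin n) R) B :=
      Module.Finite.of_surjective (Algebra.linearMap (MvPolynomial (Fin n) R) B) hθ
    exact ⟨d, hasProjectiveDimensionLE_restrict θ.toRingHom d
      (Flat2H.TorDimPoly.hasProjectiveDimensionLE_of_hasTorDimLE hd)⟩
  let π := CohB1.ProjSpace.toSpec n R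
  have hπ : IsProper π := Ega3B.ProjProper.isProper_toSpec n R
  have : DCoh.HasRpush π := hasRpush π
  have : DCoh.HasRpush (Spec.map φ') := hasRpush (Spec.map φ')
  let l : Spec Q ⟶ CohB1.ProjSpace n R := Sga5.ProjSmooth.chart n R 0
  have hl : IsOpenImmersion l := inferInstanceAs (IsOpenImmersion (Sga5.ProjSmooth.chart n R 0))
  have hP : IsNoetherian (CohB1.ProjSpace n R) := isNoetherian_of_finiteType π
  -- the restriction of `P` to `Spec R`
  let P' := pullback p j
  let j' : P' ⟶ P := pullback.fst p j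
  let p' : P' ⟶ Spec R := pullback.snd p j
  have hp : IsPullback j' p' p j := IsPullback.of_hasPullback p j
  have : DCoh.HasRpush p' := hasRpush _
  let k' : Spec B ⟶ P' := pullback.lift k (Spec.map φ) hφ.symm
  have hk'₁ : k' ≫ j' = k := pullback.lift_fst _ _ _
  have hk'₂ : k' ≫ p' = Spec.map φ := pullback.lift_snd _ _ _
  have : IsOpenImmersion (k' ≫ j') := by rw [hk'₁]; infer_instance
  have : IsOpenImmersion k' := IsOpenImmersion.of_comp k' j'
  have hs : Spec.map φ' ≫ l ≫ π = k' ≫ p' := by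
    have h1 : l ≫ π = Spec.map (CommRingCat.ofHom (MvPolynomial.C : R →+* MvPolynomial (Fin n) R)) :=
      Sga5.ProjSmooth.chart_toSpec n R 0
    rw [h1, hk'₂, ← Spec.map_comp]
    congr 1
    ext r
    exact θ.commutes r
  refine ⟨0 + (-(n : ℤ)) + d, fun N => ?_⟩
  let N₀ := (singleFunctor (ModuleCat.{u} R) 0).obj N
  let K := (ψ j hj).obj N₀
  have hN₀ : N₀.IsGE 0 := inferInstance
  have h0 : Ega1.ADualUniv.Univ p K.obj (a.obj K).obj :=
    univ_of_adj (h := h) (a := a) adj K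
  have h1 := Ega1.ADualOpen.Univ.restrict p hp K.property 0 (isGE_ψ j hj N₀ 0) h0
  have h1' : Ega1.ADualUniv.Univ p' ((tD R).obj N₀) ((restrictD j').obj (a.obj K).obj) :=
    h1.of_iso_right (restrictψ j (hj := hj) N₀)
  have hq : DCoh.IsQCohD ((tD R).obj N₀) := ((G R).obj N₀).property
  have hqc : ((tD R).obj N₀).IsGE 0 := PerfA.ExactD.isGE_map (tilde.functor R) N₀ 0
  obtain ⟨L, hL⟩ := exists_univ π ((tD R).obj N₀) hq
  have h2 := Univ.structure p' π k' l (Spec.map φ') hs hq 0 hqc h1' hL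
  have hLc : L.IsLE (0 + (-(n : ℤ))) := isLE_projSpace n R N₀ 0 hL
  have hLc' : ((restrictD l).obj L).IsLE (0 + (-(n : ℤ))) := PerfA.ExactD.isLE_map _ _ _
  obtain ⟨K₀, ⟨eK'⟩⟩ := exists_tilde ((restrictD l).obj L)
    (PerfA.QCohD.isQCohD_restrictD l hL.qcoh)
  have hK₀ : K₀.IsLE (0 + (-(n : ℤ))) := isLE_of_tilde K₀ _
    ((TStructure.t : Triangulated.TStructure (DCoh.D (Spec Q))).isLE_of_iso eK'.symm _)
  obtain ⟨e⟩ := nonempty_iso_radj φ' hφ' h2 K₀ eK' (RAdj.coextAdj φ'.hom)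
  have h3 := PdBound.isLE_radj φ'.hom (RAdj.coextAdj φ'.hom) d K₀ (0 + (-(n : ℤ)))
  have h4 : ((tD B).obj ((RAdj.RCoext φ'.hom).obj K₀)).IsLE (0 + (-(n : ℤ)) + d) :=
    PerfA.ExactD.isLE_map (tilde.functor B) _ _
  exact (TStructure.t : Triangulated.TStructure (DCoh.D (Spec B))).isLE_of_iso
    (e ≪≫ (restrictDComp k' j').app (a.obj K).obj ≪≫ (restrictDCongr hk'₁).app (a.obj K).obj) _

end Groth.Agent.Dual.H363.Bound
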