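import Groth.Agent.Dcoh.ProjD182
import Groth.Agent.Dcoh.DerPull2

/-!
# `Lf^*` and the tensor product of `D(O_Y)`

* `lpullTensorIso f M : Lf^*(- ⊗ M) ≅ Lf^*(-) ⊗ Lf^* M`;
* `restrictTensorIso k M : (- ⊗ M)|_U ≅ (-)|_U ⊗ M|_U`.
-/

set_option autoImplicit false

universe u

open CategoryTheory Limits MonoidalCategory AlgebraicGeometry

attribute [local instance] HasDerivedCategory.standard

open scoped Groth.Agent.Dcoh.MonCat Groth.Agent.Dcoh.ModD

namespace Groth.Agent.Dual.H363.TensRestr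

open Groth.Agent.Dcoh.DerPull

/-- `F(K ⊗ M) ≅ F K ⊗ F M`, naturally in `K`. -/
noncomputable def mapTensorRightIso {C D : Type*} [Category* C] [Category* D] [MonoidalCategory C]
    [MonoidalCategory D] (F : C ⥤ D) [F.Monoidal] (M : C) :
    tensorRight M ⋙ F ≅ F ⋙ tensorRight (F.obj M) :=
  NatIso.ofComponents (fun K => (Functor.Monoidal.μIso F K M).symm)
    (fun {K L} φ => by
      dsimp
      exact (Functor.OplaxMonoidal.δ_natural_left F φ M).symm)

variable {X Y : Scheme.{u}}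

/-- `Lf^*(- ⊗ M) ≅ Lf^*(-) ⊗ Lf^* M`. -/
noncomputable def lpullTensorIso (f : X ⟶ Y) [DCoh.HasLpull f] (M : DCoh.D Y) :
    tensorRight M ⋙ DCoh.Lpull f ≅ DCoh.Lpull f ⋙ tensorRight ((DCoh.Lpull f).obj M) :=
  letI := Dcoh.MonPull.monPull f
  letI := Dcoh.MonLpull182.lpullMonoidal f
  mapTensorRightIso (DCoh.Lpull f) M

/-- `(- ⊗ M)|_U ≅ (-)|_U ⊗ M|_U`. -/
noncomputable def restrictTensorIso (k : X ⟶ Y) [IsOpenImmersion k] (M : DCoh.D Y) :
    tensorRight M ⋙ DCoh.restrictD k ≅ DCoh.restrictD k ⋙ tensorRight ((DCoh.restrictD k).obj M) :=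
  haveI := hasLpull k
  Functor.isoWhiskerLeft _ (lpullOpenIso k).symm ≪≫ lpullTensorIso k M ≪≫
    Functor.isoWhiskerRight (lpullOpenIso k) _ ≪≫
    Functor.isoWhiskerLeft _ (Dcoh.MonAdj.tensorRightIso ((lpullOpenIso k).app M))

end Groth.Agent.Dual.H363.TensRestr
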