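import Groth.Agent.Dual.H363.GoodFun
import Groth.Agent.Dual.H363.Bound
import Groth.Agent.Dual.H363.TensRestr
import Groth.Prelude.Def_Dual3
import Groth.Prelude.Def_MoreMor

/-!
# `f^! K ≅ Lf^* K ⊗ f^! O_Y` from the twisted projection morphism

Let `f = c.j ≫ c.fbar` be a compactification, `a` the right adjoint of `R(c.fbar)_*` on `D_QCoh`,
`θ : L(c.fbar)^*(-) ⊗ a(O) ⟶ a(-)` a natural transformation on `D_QCoh(Y)`, which is an isomorphism at the
shifts of `O_Y`.  If `a(-)|_X` is locally on `X` bounded above on objects `Rj_* N~` then `θ|_X` is an isomorphism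
at all bounded below objects.
-/

set_option autoImplicit false

universe u

open CategoryTheory Category Limits MonoidalCategory AlgebraicGeometry Pretriangulated DerivedCategory

attribute [local instance] HasDerivedCategory.standard

open scoped Groth.Agent.Dcoh.MonCat Groth.Agent.Dcoh.ModD

namespace Groth.Agent.Dual.H363.Final

open LoccohB.LocAdj LoccohB.SuppInd PerfA.Restrict PerfC.IsoLocus LoccohB.AdBound LoccohB.AdAffine
  LoccohB.DBase LoccohB LoccohB.DQCohTri LocalIso GoodFun TensRestr Dcoh.DerPull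
open Groth.Agent.PerfB.OpenAdj (openAdj)

variable {X Y P : Scheme.{u}} [IsNoetherian Y]

section Local

variable {U : Scheme.{u}} {R : CommRingCat.{u}} (p : P ⟶ Y) [IsProper p] [DCoh.HasRpush p]
  [DCoh.HasLpull p] (h : Pres p) (a : DCoh.DQCoh Y ⥤ DCoh.DQCoh P) (adj : Rq p h ⊣ a)
  (j : Spec R ⟶ Y) [IsOpenImmersion j] [DCoh.HasRpush j] (hj : Pres j)
  (k : U ⟶ P) [IsOpenImmersion k] (g : U ⟶ Spec R) (hg : g ≫ j = k ≫ p)
  (hb : ∃ b : ℤ, ∀ N : ModuleCat.{u} R, ((restrictD k).obj (a.obj ((ψ j hj).obj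
      ((singleFunctor (ModuleCat.{u} R) 0).obj N))).obj).IsLE b)
  (O : DCoh.DQCoh Y) (eO : O.obj ≅ DCoh.inD Y (Coh.structureModule Y))

/-- `(Lp^*(-) ⊗ M)|_U ≅ Lg^*((-)|_{Spec R}) ⊗ M|_U`. -/
noncomputable def pullIso [DCoh.HasLpull g] (M : DCoh.D P) (E : CochainComplex U.Modules ℤ)
    [DCoh.HasLTensorCx E] (e : DCoh.toD U E ≅ (restrictD k).obj M) :
    DCoh.Lpull p ⋙ tensorRight M ⋙ restrictD k ≅
      restrictD j ⋙ DCoh.Lpull g ⋙ DCoh.LTensorCx E :=
  Functor.isoWhiskerLeft _ (restrictTensorIso k M) ≪≫ (Functor.associator _ _ _).symm ≪≫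
    Functor.isoWhiskerRight (lpullRestrictIso (f := p) (f' := g) (j' := k) (j := j) hg.symm) _ ≪≫
    Functor.isoWhiskerLeft (restrictD j ⋙ DCoh.Lpull g)
      ((Dcoh.MonAdj.tensorRightIso e.symm) ≪≫ (Dcoh.ProjD182.tensorIso E).symm) ≪≫
    Functor.associator _ _ _

/-- The restriction of the structure sheaf is the structure sheaf. -/
noncomputable def restrictO : (restrictD j).obj O.obj ≅ (tD R).obj (sg R 0 R) :=
  (restrictD j).mapIso eO ≪≫
    ((Scheme.Modules.restrictFunctor j).mapDerivedCategorySingleFunctor 0).app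
      (Coh.structureModule Y) ≪≫
    (singleFunctor (Spec R).Modules 0).mapIso (Scheme.Modules.restrictUnitIso j) ≪≫
    (AdProj.isoO R).symm

include adj hg hb eO in
/-- The local statement. -/
theorem isIso_local (θ : (DCoh.IsQCohD (X := Y)).ι ⋙ DCoh.Lpull p ⋙ tensorRight (a.obj O).obj ⟶
      a ⋙ (DCoh.IsQCohD (X := P)).ι) (hθ : ∀ n : ℤ, IsIso (θ.app (O⟦n⟧)))
    (K : DCoh.DQCoh Y) (c : ℤ) (hK : K.obj.IsGE c) :
    IsIso ((restrictD k).map (θ.app K)) := by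
  have := Dcoh.DerPull.hasLpull g
  have hgood := good_shriek j (hj := hj) p h a adj k g hg hb
  let eOR : (restrictD j).obj O.obj ≅ (tD R).obj (sg R 0 R) := restrictO j O eO
  have hO0 : O.obj.IsGE 0 :=
    (TStructure.t : Triangulated.TStructure (DCoh.D Y)).isGE_of_iso eO.symm 0
  -- the bound for `a(O)`
  obtain ⟨b, hbb⟩ := hgood.bound
  have hM : ((restrictD k).obj (a.obj O).obj).IsLE b := by
    have h1 := hgood.isIso_map j (unitQ j hj O) 0 hO0 (isGE_unitQ j O 0 hO0)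
      (isIso_restrictD_unitQ j O)
    let e : (restQ j).obj O ≅ (G R).obj (sg R 0 R) := (DCoh.IsQCohD (X := Spec R)).isoMk eOR
    have h2 : (TStructure.t : Triangulated.TStructure (DCoh.D U)).IsLE
      ((a ⋙ (DCoh.IsQCohD (X := P)).ι ⋙ restrictD k).obj ((Rq j hj).obj ((G R).obj (sg R 0 R)))) b :=
      hbb (ModuleCat.of R R)
    exact (TStructure.t : Triangulated.TStructure (DCoh.D U)).isLE_of_iso
      ((a ⋙ (DCoh.IsQCohD (X := P)).ι ⋙ restrictD k).mapIso ((Rq j hj).mapIso e.symm) ≪≫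
        (asIso ((a ⋙ (DCoh.IsQCohD (X := P)).ι ⋙ restrictD k).map (unitQ j hj O))).symm) b
  obtain ⟨E, ⟨eE⟩⟩ : ∃ E : CochainComplex U.Modules ℤ,
      Nonempty (DCoh.toD U E ≅ (restrictD k).obj (a.obj O).obj) :=
    ⟨_, ⟨Q.objObjPreimageIso _⟩⟩
  have hE : (DCoh.toD U E).IsLE b :=
    (TStructure.t : Triangulated.TStructure (DCoh.D U)).isLE_of_iso eE.symm b
  have := PerfC.DTens.hasLTensorCx E
  have hgood' : Good j ((DCoh.IsQCohD (X := Y)).ι ⋙ DCoh.Lpull p ⋙ tensorRight (a.obj O).obj ⋙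
      restrictD k) hj :=
    Good.of_iso j (good_pull j g E b) (Functor.isoWhiskerLeft (DCoh.IsQCohD (X := Y)).ι
      (pullIso p j k g hg (a.obj O).obj E eE)).symm
  let θ' : (DCoh.IsQCohD (X := Y)).ι ⋙ DCoh.Lpull p ⋙ tensorRight (a.obj O).obj ⋙ restrictD k ⟶
      a ⋙ (DCoh.IsQCohD (X := P)).ι ⋙ restrictD k := Functor.whiskerRight θ (restrictD k)
  exact isIso_app j hgood' hgood θ' O 0 hO0 eOR
    (fun n => Functor.map_isIso (restrictD k) (θ.app (O⟦n⟧))) K c hK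

end Local

open Groth.Agent.PerfA.PerfLocal (restrictDComp restrictDCongr)

/-- Isomorphisms can be detected on open immersions. -/
lemma isIso_of_restrictD {X : Scheme.{u}} {K L : DCoh.D X} (φ : K ⟶ L)
    (h : ∀ x : X, ∃ (U : Scheme.{u}) (j : U ⟶ X) (_ : IsOpenImmersion j), x ∈ Set.range j ∧
      IsIso ((restrictD j).map φ)) : IsIso φ := by
  refine isIso_of_restrictD_opens φ fun x => ?_
  obtain ⟨U, j, hj, hx, hU⟩ := h x
  refine ⟨j.opensRange, hx, ?_⟩
  have hg : j.isoOpensRange.inv ≫ j = j.opensRange.ι := by simp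
  exact (NatIso.isIso_map_iff (restrictDComp (j.isoOpensRange).inv j ≪≫ restrictDCongr hg) φ).1
    (inferInstanceAs (IsIso ((restrictD _).map ((restrictD j).map φ))))

section Main

variable {f : X ⟶ Y} [LocallyOfFiniteType f] (hf : MoreMor.IsPerfectMor f)
  (c : DEt.Compactification f) [DCoh.HasRpush c.fbar] [DCoh.HasLpull c.fbar] (h : Pres c.fbar)
  (a : DCoh.DQCoh Y ⥤ DCoh.DQCoh c.Xbar) (adj : Rq c.fbar h ⊣ a)
  (O : DCoh.DQCoh Y) (eO : O.obj ≅ DCoh.inD Y (Coh.structureModule Y))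
  (θ : (DCoh.IsQCohD (X := Y)).ι ⋙ DCoh.Lpull c.fbar ⋙ tensorRight (a.obj O).obj ⟶
      a ⋙ (DCoh.IsQCohD (X := c.Xbar)).ι) (hθ : ∀ n : ℤ, IsIso (θ.app (O⟦n⟧)))

include hf adj eO hθ in
theorem isIso_restrict (K : DCoh.DQCoh Y) (c₀ : ℤ) (hK : K.obj.IsGE c₀) :
    IsIso ((restrictD c.j).map (θ.app K)) := by
  refine isIso_of_restrictD _ (fun x => ?_)
  obtain ⟨V, hV, hxV, -⟩ := exists_isAffineOpen_mem_and_subset (x := f x) (U := (⊤ : Y.Opens)) trivial
  obtain ⟨U, hU, hxU, hUV⟩ := exists_isAffineOpen_mem_and_subset (x := x) (U := f ⁻¹ᵁ V) hxV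
  let φ := f.appLE V U hUV
  have h1 : Spec.map φ ≫ hV.fromSpec = hU.fromSpec ≫ f := hV.SpecMap_appLE_fromSpec f hU hUV
  have h2 : Spec.map φ ≫ hV.fromSpec = (hU.fromSpec ≫ c.j) ≫ c.fbar := by
    rw [h1, Category.assoc, c.fac]
  have hft : φ.hom.FiniteType := f.finiteType_appLE hV hU hUV
  have := Dcoh.DerSch.hasRpush hV.fromSpec
  have hj : Pres hV.fromSpec := fun N hN => S0998.result hV.fromSpec N hN
  have hb := Bound.exists_bound c.fbar h a adj hV.fromSpec hj (hU.fromSpec ≫ c.j) φ h2 hft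
    (hf U V hU hV hUV).2
  refine ⟨_, hU.fromSpec, inferInstance, ?_, ?_⟩
  · rw [hU.range_fromSpec]
    exact hxU
  · have h3 := isIso_local c.fbar h a adj hV.fromSpec hj (hU.fromSpec ≫ c.j) (Spec.map φ) h2 hb O eO
      θ hθ K c₀ hK
    exact (NatIso.isIso_map_iff (restrictDComp hU.fromSpec c.j) (θ.app K)).2 h3

/-- `(L(fbar)^*(-) ⊗ a(O))|_X ≅ Lf^*(-) ⊗ a(O)|_X`. -/
noncomputable def globIso [DCoh.HasLpull f] (M : DCoh.D c.Xbar) (E : CochainComplex X.Modules ℤ)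
    [DCoh.HasLTensorCx E] (e : DCoh.toD X E ≅ (restrictD c.j).obj M) :
    DCoh.Lpull c.fbar ⋙ tensorRight M ⋙ restrictD c.j ≅ DCoh.Lpull f ⋙ DCoh.LTensorCx E :=
  haveI := hasLpull c.j
  haveI := hasLpull (c.j ≫ c.fbar)
  Functor.isoWhiskerLeft _ (restrictTensorIso c.j M) ≪≫ (Functor.associator _ _ _).symm ≪≫
    Functor.isoWhiskerRight (Functor.isoWhiskerLeft _ (lpullOpenIso c.j).symm ≪≫
      lpullCompIso c.j c.fbar ≪≫ lpullCongr c.fac) _ ≪≫
    Functor.isoWhiskerLeft (DCoh.Lpull f)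
      ((Dcoh.MonAdj.tensorRightIso e.symm) ≪≫ (Dcoh.ProjD182.tensorIso E).symm)

include hf adj eO hθ in
theorem nonempty_iso [DCoh.HasLpull f] (E : CochainComplex X.Modules ℤ)
    (hE : Nonempty (DCoh.toD X E ≅ (Dual3.shriekC c a).obj O)) [DCoh.HasLTensorCx E] :
    Nonempty (Dual3.bddι Y ⋙ Dual3.shriekC c a ≅
      Dual3.bddι Y ⋙ ObjectProperty.ι _ ⋙ DCoh.Lpull f ⋙ DCoh.LTensorCx E) := by
  obtain ⟨eE⟩ := hE
  have key : ∀ K : (Dual3.IsBddBelowQ Y).FullSubcategory,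
      IsIso ((restrictD c.j).map (θ.app K.obj)) := fun K => by
    obtain ⟨c₀, hc₀⟩ := K.property
    exact isIso_restrict hf c h a adj O eO θ hθ K.obj c₀ hc₀
  let e₁ : Dual3.bddι Y ⋙ (DCoh.IsQCohD (X := Y)).ι ⋙ DCoh.Lpull c.fbar ⋙
      tensorRight (a.obj O).obj ⋙ restrictD c.j ≅ Dual3.bddι Y ⋙ Dual3.shriekC c a :=
    NatIso.ofComponents (fun K => asIso ((restrictD c.j).map (θ.app K.obj)))
      (fun {K L} g => by
        change (restrictD c.j).map _ ≫ (restrictD c.j).map _ =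
          (restrictD c.j).map _ ≫ (restrictD c.j).map _
        rw [← Functor.map_comp, ← Functor.map_comp]
        exact congrArg _ (θ.naturality g.hom))
  exact ⟨e₁.symm ≪≫ Functor.isoWhiskerLeft (Dual3.bddι Y)
    (Functor.isoWhiskerLeft (DCoh.IsQCohD (X := Y)).ι (globIso c (a.obj O).obj E eE))⟩

end Main

end Groth.Agent.Dual.H363.Final
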