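import Groth.Agent.Dual.H363.LocalIso
import Groth.Agent.Dual.H363.BddCoprod
import Groth.Agent.PerfC.DTens
import Groth.Agent.PerfC.LTBound
import Groth.Agent.PerfC.RelFlatLpull
import Groth.Agent.PerfB.PullData
import Groth.Agent.Dcoh.DerPull2

/-!
# The functors `Lf^*(-) ⊗ E` and `a(-)` satisfy the hypotheses of the local criterion

`Y` Noetherian, `j : Spec R ⟶ Y` an open immersion.
* `Good.of_iso`;
* `good_pull`: `K ↦ Lg^*(K|_{Spec R}) ⊗ E` for `g : U ⟶ Spec R` and `E` bounded above;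
* `good_shriek`: `K ↦ a(K)|_U`, for `p : X ⟶ Y` proper, `a` right adjoint of `Rp_*` and `U ⊆ p⁻¹(Spec R)` open, if
  it is bounded above on the objects `Rj_* N~`.
-/

set_option autoImplicit false

universe w v u₁ u

open CategoryTheory Category Limits AlgebraicGeometry Pretriangulated DerivedCategory

attribute [local instance] HasDerivedCategory.standard

namespace Groth.Agent.Dual.H363.GoodFun

open LoccohB.LocAdj LoccohB.SuppInd PerfA.Restrict PerfC.IsoLocus LoccohB.AdBound LoccohB.AdAffine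
  LoccohB.DBase LoccohB LoccohB.DQCohTri LoccohB.VanOn LocalIso
open Groth.Agent.PerfB.OpenAdj (openAdj)

variable {Y : Scheme.{u}} [IsNoetherian Y] {R : CommRingCat.{u}} (j : Spec R ⟶ Y)
  [IsOpenImmersion j] [DCoh.HasRpush j] {hj : Pres j}

/-- Transport of colimit cofans along an isomorphism of functors. -/
noncomputable def isColimitCofanOfIso {C D : Type*} [Category* C] [Category* D] {F F' : C ⥤ D} (e : F ≅ F')
    {J : Type*} {N : J → C} {t : Cofan N}
    (hc : IsColimit (Cofan.mk (F.obj t.pt) (fun i => F.map (t.inj i)))) :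
    IsColimit (Cofan.mk (F'.obj t.pt) (fun i => F'.map (t.inj i))) :=
  Cofan.IsColimit.mk _
    (fun s => e.inv.app t.pt ≫ Cofan.IsColimit.desc hc (fun i => e.hom.app (N i) ≫ s.inj i))
    (fun s i => by
      have h1 : F.map (t.inj i) ≫ Cofan.IsColimit.desc hc (fun i => e.hom.app (N i) ≫ s.inj i) =
          e.hom.app (N i) ≫ s.inj i := Cofan.IsColimit.fac hc _ i
      change F'.map (t.inj i) ≫ e.inv.app t.pt ≫ _ = _
      rw [e.inv.naturality_assoc, h1, Iso.inv_hom_id_app_assoc])
    (fun s m hm => by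
      have h1 : e.hom.app t.pt ≫ m =
          Cofan.IsColimit.desc hc (fun i => e.hom.app (N i) ≫ s.inj i) := by
        refine Cofan.IsColimit.hom_ext hc _ _ (fun i => ?_)
        rw [Cofan.IsColimit.fac]
        change F.map (t.inj i) ≫ e.hom.app t.pt ≫ m = _
        rw [e.hom.naturality_assoc, ← hm i]
        rfl
      change m = e.inv.app t.pt ≫ _
      rw [← h1, Iso.inv_hom_id_app_assoc])

omit [AlgebraicGeometry.IsNoetherian Y] in
theorem Good.of_iso {B : Type u₁} [Category.{v} B] [Abelian B] [HasDerivedCategory.{w} B]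
    {F F' : DCoh.DQCoh Y ⥤ DerivedCategory B} (h : Good j F hj) (e : F ≅ F') : Good j F' hj where
  tri := h.tri.of_iso e
  supp C c hC hC' := (h.supp C c hC hC').of_iso (e.app C).symm
  cop {J N t} ht c hN := by
    obtain ⟨hc⟩ := h.cop ht c hN
    exact ⟨isColimitCofanOfIso e hc⟩
  bound := by
    obtain ⟨b, hb⟩ := h.bound
    exact ⟨b, fun N => (TStructure.t : Triangulated.TStructure (DerivedCategory B)).isLE_of_iso
      (e.app _) b⟩

/-- `Rj_* N~` restricted to `Spec R`. -/
noncomputable def restrictψ (M : DerivedCategory (ModuleCat.{u} R)) :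
    (restrictD j).obj ((ψ j hj).obj M).obj ≅ (tD R).obj M :=
  haveI := PerfB.OpenAdj.isIso_openAdj_counit j
  (asIso (openAdj j).counit).app ((tD R).obj M)

lemma isTriang_Lpull {X Z : Scheme.{u}} (f : X ⟶ Z) [DCoh.HasLpull f] : IsTriang (DCoh.Lpull f) := by
  let _ := Dcoh.DerPull.lpullCommShift f
  have := Dcoh.DerPull.lpull_isTriangulated f
  exact IsTriang.mk' _

omit [AlgebraicGeometry.IsNoetherian Y] in
theorem good_pull {U : Scheme.{u}} (g : U ⟶ Spec R) [DCoh.HasLpull g]
    (E : CochainComplex U.Modules ℤ) [DCoh.HasLTensorCx E] (m : ℤ) [hE : (DCoh.toD U E).IsLE m] :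
    Good j ((DCoh.IsQCohD (X := Y)).ι ⋙ restrictD j ⋙ DCoh.Lpull g ⋙ DCoh.LTensorCx E) hj where
  tri := (IsTriang.mk' _).comp ((IsTriang.mk' _).comp
    ((isTriang_Lpull g).comp (PerfC.DTens.isTriang_LTensorCx E)))
  supp C c _ hC := by
    have h := (isTriang_Lpull g).comp (PerfC.DTens.isTriang_LTensorCx E)
    have := h.additive
    exact (DCoh.Lpull g ⋙ DCoh.LTensorCx E).map_isZero hC
  cop {J N t} ht c hN := by
    have := Dcoh.DerSch.hasRpush g
    have h1 : (DCoh.Lpull g).IsLeftAdjoint := (Dcoh.DerPull.lpullAdj g).isLeftAdjoint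
    have h2 : (restrictD j).IsLeftAdjoint := (openAdj j).isLeftAdjoint
    have h3 := PerfC.DTens.preservesCoproducts_LTensorCx J E
    exact ⟨isColimitCofanMkObjOfIsColimit
      ((DCoh.IsQCohD (X := Y)).ι ⋙ restrictD j ⋙ DCoh.Lpull g ⋙ DCoh.LTensorCx E) _ _ ht⟩
  bound := by
    refine ⟨0 + m, fun N => ?_⟩
    let K := (singleFunctor (ModuleCat.{u} R) 0).obj N
    have h1 : ((tD R).obj K).IsLE 0 := PerfA.ExactD.isLE_map (tilde.functor R) K 0
    have h2 := PerfC.RelFlatLpull.isLE_lpull (Groth.Agent.PerfB.PullData.pullData g) ((tD R).obj K) 0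
    have h3 := PerfC.LTBound.isLE_LTensorCx (PerfC.DTens.bifData U) E m
      ((DCoh.Lpull g).obj ((tD R).obj K)) 0
    exact (TStructure.t : Triangulated.TStructure (DCoh.D U)).isLE_of_iso
      (X := (DCoh.LTensorCx E).obj ((DCoh.Lpull g).obj ((tD R).obj K)))
      ((DCoh.Lpull g ⋙ DCoh.LTensorCx E).mapIso (restrictψ j (hj := hj) K).symm) _

theorem good_shriek {X U : Scheme.{u}} (p : X ⟶ Y) [IsProper p] [DCoh.HasRpush p] (h : Pres p)
    (a : DCoh.DQCoh Y ⥤ DCoh.DQCoh X) (adj : Rq p h ⊣ a) (k : U ⟶ X) [IsOpenImmersion k]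
    (g : U ⟶ Spec R) (hg : g ≫ j = k ≫ p)
    (hb : ∃ b : ℤ, ∀ N : ModuleCat.{u} R, ((restrictD k).obj (a.obj ((ψ j hj).obj
      ((singleFunctor (ModuleCat.{u} R) 0).obj N))).obj).IsLE b) :
    Good j (a ⋙ (DCoh.IsQCohD (X := X)).ι ⋙ restrictD k) hj where
  tri := by
    let _ := Dcoh.DerSch.rpushCommShift p
    have := Dcoh.DerSch.rpush_isTriangulated p
    let _ : a.CommShift ℤ := adj.rightAdjointCommShift ℤ
    have : adj.CommShift ℤ := adj.commShift_of_leftAdjoint ℤ
    have : a.IsTriangulated := adj.isTriangulated_rightAdjoint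
    exact IsTriang.mk' _
  supp C c hC hC' := by
    have hV : Set.range j = Set.range j.opensRange.ι := by
      rw [Scheme.Opens.range_ι]; rfl
    have h1 : vanOn j.opensRange C.obj := by
      rw [vanOn, Ega1.ADualOpen.isZero_restrictD_iff]
      exact fun i => Ega1.ADualOpen.isZero_restrict_of_range hV.ge
        ((Ega1.ADualOpen.isZero_restrictD_iff _ _).1 hC' i)
    have h2 := SuppInd.vanOn_preimage p h a adj j.opensRange C c
      (fun i hi => isZero_of_isGE C.obj c i hi) h1
    refine (Ega1.ADualOpen.isZero_restrictD_iff _ _).2 fun i =>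
      Ega1.ADualOpen.isZero_restrict_of_range (by
        rintro _ ⟨y, rfl⟩
        rw [Scheme.Opens.range_ι]
        exact ⟨g y, by rw [← Scheme.Hom.comp_apply, hg]; rfl⟩)
        ((Ega1.ADualOpen.isZero_restrictD_iff _ _).1 h2 i)
  cop {J N t} ht c hN := by
    obtain ⟨hc⟩ := BddCoprod.nonempty_isColimit p h a adj ht c
      (fun i q hq => isZero_of_isGE (N i).obj c q hq)
    have := Dcoh.DerSch.hasRpush k
    have h2 : (restrictD k).IsLeftAdjoint := (openAdj k).isLeftAdjoint
    exact ⟨isColimitCofanMkObjOfIsColimit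
      ((DCoh.IsQCohD (X := X)).ι ⋙ restrictD k) _ _ hc⟩
  bound := hb

end Groth.Agent.Dual.H363.GoodFun
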