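import Groth.Agent.Dual.H363.WayOut
import Groth.Agent.LoccohB.SuppInd
import Groth.Agent.LoccohB.AdProj
import Groth.Agent.LoccohB.BCHyp
import Groth.Agent.CohtopB.DCoprod
import Groth.Agent.PerfB.OpenAdj
import Mathlib.Algebra.Category.ModuleCat.AB

/-!
# Local criterion for a natural transformation of triangulated functors on `D_QCoh(Y)`

`Y` Noetherian, `j : Spec R ⟶ Y` an open immersion, `G, G' : D_QCoh(Y) ⥤ D(B)` triangulated functors which
* kill the bounded below objects vanishing on `Spec R`;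
* commute with uniformly bounded below coproducts;
* are uniformly bounded above on the objects `Rj_* N~`, `N` an `R`-module.
If `θ : G ⟶ G'` is an isomorphism on all shifts of `O_Y`, it is an isomorphism on all bounded below objects.
-/

set_option autoImplicit false

universe w v u₁ u

open CategoryTheory Category Limits AlgebraicGeometry Pretriangulated DerivedCategory

attribute [local instance] HasDerivedCategory.standard

namespace Groth.Agent.Dual.H363.LocalIso

open LoccohB.LocAdj LoccohB.SuppInd PerfA.Restrict PerfC.IsoLocus LoccohB.AdBound LoccohB.AdAffine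
  LoccohB.DBase LoccohB LoccohB.DQCohTri
open Groth.Agent.PerfB.OpenAdj (openAdj)

section Abs

variable {C D : Type*} [Category* C] [Category* D] {F F' : C ⥤ D} (τ : F ⟶ F')

/-- A natural transformation is an isomorphism at a coproduct preserved by both functors if it is an isomorphism
at the summands. -/
lemma isIso_of_cofans {J : Type*} {N : J → C} {t : Cofan N}
    (h : IsColimit (Cofan.mk (F.obj t.pt) (fun i => F.map (t.inj i))))
    (h' : IsColimit (Cofan.mk (F'.obj t.pt) (fun i => F'.map (t.inj i))))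
    (hτ : ∀ i, IsIso (τ.app (N i))) : IsIso (τ.app t.pt) := by
  let s : F'.obj t.pt ⟶ F.obj t.pt :=
    Cofan.IsColimit.desc h' (fun i => inv (τ.app (N i)) ≫ F.map (t.inj i))
  have hs : ∀ i, F'.map (t.inj i) ≫ s = inv (τ.app (N i)) ≫ F.map (t.inj i) :=
    Cofan.IsColimit.fac h' _
  refine ⟨s, Cofan.IsColimit.hom_ext h _ _ (fun i => ?_), Cofan.IsColimit.hom_ext h' _ _ (fun i => ?_)⟩
  · change F.map (t.inj i) ≫ τ.app _ ≫ s = F.map (t.inj i) ≫ 𝟙 _
    rw [τ.naturality_assoc, hs, IsIso.hom_inv_id_assoc, comp_id]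
  · change F'.map (t.inj i) ≫ s ≫ τ.app _ = F'.map (t.inj i) ≫ 𝟙 _
    rw [reassoc_of% (hs i), τ.naturality, IsIso.inv_hom_id_assoc, comp_id]

end Abs

variable {Y : Scheme.{u}} [IsNoetherian Y] {R : CommRingCat.{u}} (j : Spec R ⟶ Y)
  [IsOpenImmersion j]

section Psi

variable [DCoh.HasRpush j] (hj : Pres j)

/-- `M ↦ Rj_* M~`. -/
noncomputable def ψ : DerivedCategory (ModuleCat.{u} R) ⥤ DCoh.DQCoh Y := G R ⋙ Rq j hj

lemma isTriang_Rq {X Z : Scheme.{u}} (f : X ⟶ Z) [DCoh.HasRpush f] (h : Pres f) :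
    IsTriang (Rq f h) := by
  let _ := Dcoh.DerSch.rpushCommShift f
  have := Dcoh.DerSch.rpush_isTriangulated f
  exact IsTriang.mk' _

omit [AlgebraicGeometry.IsNoetherian Y] [IsOpenImmersion j] in
lemma isTriang_ψ : IsTriang (ψ j hj) := (IsTriang.mk' (G R)).comp (isTriang_Rq j hj)

lemma preservesCoproducts_Rq {X Z : Scheme.{u}} (f : X ⟶ Z) [QuasiCompact f] [QuasiSeparated f]
    [DCoh.HasRpush f] (h : Pres f) (J : Type u) :
    PreservesColimitsOfShape (Discrete J) (Rq f h) :=
  LoccohB.FullSubTri.preservesColimitsOfShape_lift DCoh.IsQCohD DCoh.IsQCohD (DCoh.Rpush f)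
    (fun K => h K.obj K.property) (LoccohB.RightAdj.preservesCoproducts f J)

lemma preservesCoproducts_ψ (J : Type u) : PreservesColimitsOfShape (Discrete J) (ψ j hj) := by
  have := preservesCoproducts_Rq j hj J
  have : (G R).IsEquivalence := {}
  unfold ψ
  infer_instance

omit [AlgebraicGeometry.IsNoetherian Y] [IsOpenImmersion j] in
lemma isGE_ψ (M : DerivedCategory (ModuleCat.{u} R)) (c : ℤ) [M.IsGE c] :
    ((ψ j hj).obj M).obj.IsGE c := by
  have h1 : ((tD R).obj M).IsGE c := PerfA.ExactD.isGE_map (tilde.functor R) M c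
  exact PerfC.RpushTrunc.isGE_Rpush j ((tD R).obj M) c

end Psi

/-- The hypotheses on the functors. -/
structure Good {B : Type u₁} [Category.{v} B] [Abelian B] [HasDerivedCategory.{w} B]
    (F : DCoh.DQCoh Y ⥤ DerivedCategory B) [DCoh.HasRpush j] (hj : Pres j) : Prop where
  tri : IsTriang F
  supp : ∀ (C : DCoh.DQCoh Y) (c : ℤ), C.obj.IsGE c → IsZero ((restrictD j).obj C.obj) →
    IsZero (F.obj C)
  cop : ∀ {J : Type u} {N : J → DCoh.DQCoh Y} {t : Cofan N} (_ : IsColimit t) (c : ℤ),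
    (∀ i, (N i).obj.IsGE c) →
      Nonempty (IsColimit (Cofan.mk (F.obj t.pt) (fun i => F.map (t.inj i))))
  bound : ∃ b : ℤ, ∀ N : ModuleCat.{u} R,
    (F.obj ((ψ j hj).obj ((singleFunctor (ModuleCat.{u} R) 0).obj N))).IsLE b

variable {B : Type u₁} [Category.{v} B] [Abelian B] [HasDerivedCategory.{w} B]
  {F F' : DCoh.DQCoh Y ⥤ DerivedCategory B} [DCoh.HasRpush j] {hj : Pres j}

lemma isGE_shift {X : Scheme.{u}} {K : DCoh.DQCoh X} (c n : ℤ) (hK : K.obj.IsGE c) :
    (K⟦n⟧).obj.IsGE (c - n) := by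
  have h1 : (TStructure.t : Triangulated.TStructure (DCoh.D X)).IsGE
      ((DCoh.IsQCohD.ι ⋙ shiftFunctor (DCoh.D X) n).obj K) (c - n) :=
    (TStructure.t : Triangulated.TStructure (DCoh.D X)).isGE_shift K.obj c n (c - n) (by ring)
  exact (TStructure.t : Triangulated.TStructure (DCoh.D X)).isGE_of_iso
    (((ObjectProperty.ι (DCoh.IsQCohD (X := X))).commShiftIso n).app K).symm (c - n)

omit [AlgebraicGeometry.IsNoetherian Y] in
/-- `Good` functors invert the maps of bounded below objects which are isomorphisms on `Spec R`. -/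
lemma Good.isIso_map (h : Good j F hj) {K L : DCoh.DQCoh Y} (φ : K ⟶ L) (c : ℤ)
    (hK : K.obj.IsGE c) (hL : L.obj.IsGE c) (hφ : IsIso ((restrictD j).map φ.hom)) :
    IsIso (F.map φ) := by
  obtain ⟨C, v, w, hT⟩ := distinguished_cocone_triangle φ
  obtain ⟨_, _⟩ := h.tri
  refine (Triangle.isZero₃_iff_isIso₁ _ (F.map_distinguished _ hT)).1 ?_
  have hT' := (ObjectProperty.ι (DCoh.IsQCohD (X := Y))).map_distinguished _ hT
  refine h.supp C (c - 1) ?_ ?_
  · rw [isGE_iff]
    intro i hi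
    refine ((HomologySequence.exact₃ _ hT' i (i + 1) rfl)).isZero_X₂ ?_ ?_
    · exact (isZero_of_isGE L.obj c i (by lia)).eq_of_src _ _
    · exact (isZero_of_isGE K.obj c (i + 1) (by lia)).eq_of_tgt _ _
  · exact (Triangle.isZero₃_iff_isIso₁ _ ((restrictD j).map_distinguished _ hT')).2 hφ

/-- The unit `K ⟶ Rj_* j^* K` in `D_QCoh(Y)`. -/
noncomputable def unitQ (hj : Pres j) (K : DCoh.DQCoh Y) : K ⟶ (Rq j hj).obj ((restQ j).obj K) :=
  ObjectProperty.homMk ((openAdj j).unit.app K.obj)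

omit [AlgebraicGeometry.IsNoetherian Y] in
lemma isIso_restrictD_unitQ (K : DCoh.DQCoh Y) : IsIso ((restrictD j).map (unitQ j hj K).hom) :=
  PerfB.OpenAdj.isIso_restrictD_map_unit j K.obj

omit [AlgebraicGeometry.IsNoetherian Y] in
lemma isGE_unitQ (K : DCoh.DQCoh Y) (c : ℤ) (hK : K.obj.IsGE c) :
    ((Rq j hj).obj ((restQ j).obj K)).obj.IsGE c := by
  have h1 : ((restrictD j).obj K.obj).IsGE c := PerfA.ExactD.isGE_map _ _ _
  exact PerfC.RpushTrunc.isGE_Rpush j ((restrictD j).obj K.obj) c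

variable (hF : Good j F hj) (hF' : Good j F' hj) (θ : F ⟶ F')

omit [AlgebraicGeometry.IsNoetherian Y] in
include hF hF' in
/-- Comparison of `θ` at objects with the same restriction. -/
lemma isIso_app_iff {K L : DCoh.DQCoh Y} (φ : K ⟶ L) (c : ℤ)
    (hK : K.obj.IsGE c) (hL : L.obj.IsGE c) (hφ : IsIso ((restrictD j).map φ.hom)) :
    IsIso (θ.app K) ↔ IsIso (θ.app L) := by
  have h1 := hF.isIso_map j φ c hK hL hφ
  have h2 := hF'.isIso_map j φ c hK hL hφ
  have h3 := θ.naturality φ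
  constructor
  · intro h
    have : IsIso (F.map φ ≫ θ.app L) := by
      rw [h3]
      infer_instance
    exact IsIso.of_isIso_comp_left (F.map φ) _
  · intro h
    have : IsIso (θ.app K ≫ F'.map φ) := by
      rw [← h3]
      infer_instance
    exact IsIso.of_isIso_comp_right _ (F'.map φ)

/-- The transformation on `D(R)`. -/
noncomputable abbrev τ (hj : Pres j) : ψ j hj ⋙ F ⟶ ψ j hj ⋙ F' := Functor.whiskerLeft (ψ j hj) θ

lemma ModuleCat_epi_linearCombination (N : ModuleCat.{u} R) :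
    Epi (ModuleCat.ofHom (Finsupp.linearCombination R (fun x : N => x)) :
      ModuleCat.of R (N →₀ R) ⟶ N) := by
  rw [ModuleCat.epi_iff_surjective]
  intro x
  exact ⟨Finsupp.single x 1, by simp⟩

include hF hF' in
/-- Coproducts. -/
lemma isoLocus_cofan {J : Type u} {N : J → DerivedCategory (ModuleCat.{u} R)} {t : Cofan N}
    (ht : IsColimit t) (c : ℤ) (hN : ∀ i, (N i).IsGE c) (h : ∀ i, isoLocus (τ j θ hj) (N i)) :
    isoLocus (τ j θ hj) t.pt := by
  intro n
  have hψ := preservesCoproducts_ψ j hj J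
  have : PreservesColimitsOfShape (Discrete J)
    (shiftFunctor (DerivedCategory (ModuleCat.{u} R)) n ⋙ ψ j hj) := inferInstance
  let t' : Cofan (fun i => (ψ j hj).obj ((N i)⟦n⟧)) :=
    Cofan.mk ((ψ j hj).obj (t.pt⟦n⟧)) (fun i => (ψ j hj).map ((t.inj i)⟦n⟧'))
  have ht' : IsColimit t' := isColimitCofanMkObjOfIsColimit
    (shiftFunctor (DerivedCategory (ModuleCat.{u} R)) n ⋙ ψ j hj) _ _ ht
  have hc : ∀ i, ((ψ j hj).obj ((N i)⟦n⟧)).obj.IsGE (c - n) := by
    intro i
    have := hN i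
    have : ((N i)⟦n⟧).IsGE (c - n) :=
      (TStructure.t : Triangulated.TStructure (DerivedCategory (ModuleCat.{u} R))).isGE_shift _
        c n (c - n) (by ring)
    exact isGE_ψ j hj _ _
  obtain ⟨h1⟩ := hF.cop ht' (c - n) hc
  obtain ⟨h2⟩ := hF'.cop ht' (c - n) hc
  exact isIso_of_cofans θ h1 h2 (fun i => h i n)

include hF hF' in
lemma isoLocus_free (h : isoLocus (τ j θ hj) ((singleFunctor (ModuleCat.{u} R) 0).obj (ModuleCat.of R R)))
    (J : Type u) :
    isoLocus (τ j θ hj) ((singleFunctor (ModuleCat.{u} R) 0).obj (ModuleCat.of R (J →₀ R))) := by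
  have h0 : PreservesColimitsOfShape (Discrete J)
      (DerivedCategory.singleFunctor (ModuleCat.{u} R) 0) :=
    CohtopB.DCoprod.preservesColimitsOfShape_singleFunctor 0
  exact isoLocus_cofan j hF hF' θ (isColimitCofanMkObjOfIsColimit
    (DerivedCategory.singleFunctor (ModuleCat.{u} R) 0) _ _
    (LoccohB.BCHyp.isColimitFinsuppCofan R J)) 0 (fun _ => inferInstance) (fun _ => h)

include hF hF' in
lemma isoLocus_module (h : isoLocus (τ j θ hj) ((singleFunctor (ModuleCat.{u} R) 0).obj (ModuleCat.of R R)))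
    (N : ModuleCat.{u} R) :
    isoLocus (τ j θ hj) ((singleFunctor (ModuleCat.{u} R) 0).obj N) := by
  obtain ⟨b, hb⟩ := hF.bound
  obtain ⟨b', hb'⟩ := hF'.bound
  refine WayOut.isoLocus_single ((isTriang_ψ j hj).comp hF.tri) ((isTriang_ψ j hj).comp hF'.tri)
    (τ j θ hj) (max b b') ?_ ?_ ?_ N
  · intro N
    have := hb N
    exact (TStructure.t : Triangulated.TStructure (DerivedCategory B)).isLE_of_le
      (F.obj ((ψ j hj).obj _)) b _ (le_max_left _ _)
  · intro N
    have := hb' N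
    exact (TStructure.t : Triangulated.TStructure (DerivedCategory B)).isLE_of_le
      (F'.obj ((ψ j hj).obj _)) b' _ (le_max_right _ _)
  · intro N
    exact ⟨_, _, ModuleCat_epi_linearCombination N, isoLocus_free j hF hF' θ h N⟩

include hF hF' in
lemma isoLocus_isGE (h : isoLocus (τ j θ hj) ((singleFunctor (ModuleCat.{u} R) 0).obj (ModuleCat.of R R)))
    (M : DerivedCategory (ModuleCat.{u} R)) (c : ℤ) [M.IsGE c] :
    isoLocus (τ j θ hj) M := by
  have hN : HasCoproductsOfShape (ULift.{u} ℕ) (DerivedCategory (ModuleCat.{u} R)) := inferInstance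
  have : HasColimitsOfShape (Discrete ℕ) (DerivedCategory (ModuleCat.{u} R)) :=
    hasColimitsOfShape_of_equivalence (Discrete.equivalence Equiv.ulift.{u})
  have : ∀ q, PreservesColimitsOfShape (Discrete ℕ) (homologyFunctor (ModuleCat.{u} R) q) := fun q => by
    have := CohtopB.DCoprod.preservesColimitsOfShape_homologyFunctor_derivedCategory
      (A := ModuleCat.{u} R) (ι := ULift.{u} ℕ) q
    exact preservesColimitsOfShape_of_equiv (Discrete.equivalence Equiv.ulift.{u}) _
  have : HasExactColimitsOfShape ℕ (ModuleCat.{u} R) := by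
    have := AB5OfSize_of_univLE.{0, 0, u, u} (ModuleCat.{u} R)
    exact AB5OfSize.ofShape ℕ
  refine WayOut.isoLocus_plus ((isTriang_ψ j hj).comp hF.tri) ((isTriang_ψ j hj).comp hF'.tri)
    (τ j θ hj) (isoLocus_module j hF hF' θ h) ?_ M c
  intro E a hE hE'
  let t : Cofan (fun i : ULift.{u} ℕ => E i.down) := Cofan.mk (∐ E) (fun i => Sigma.ι E i.down)
  have ht : IsColimit t :=
    (IsColimit.whiskerEquivalenceEquiv (Discrete.equivalence Equiv.ulift.{u})
      (coproductIsCoproduct E)).ofIsoColimit (Cocone.ext (Iso.refl _) (fun i => comp_id _))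
  exact isoLocus_cofan j hF hF' θ ht a (fun i => hE _) (fun i => hE' _)

include hF hF' in
/-- **Local criterion.** -/
theorem isIso_app (O : DCoh.DQCoh Y) (c₀ : ℤ) (hO : O.obj.IsGE c₀)
    (eO : (restrictD j).obj O.obj ≅ (tD R).obj (sg R 0 R)) (hθ : ∀ n : ℤ, IsIso (θ.app (O⟦n⟧)))
    (K : DCoh.DQCoh Y) (c : ℤ) (hK : K.obj.IsGE c) : IsIso (θ.app K) := by
  have h1 : isoLocus (τ j θ hj)
      ((singleFunctor (ModuleCat.{u} R) 0).obj (ModuleCat.of R R)) := by
    intro n
    -- the comparison map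
    let φ : O⟦n⟧ ⟶ ((Rq j hj).obj ((restQ j).obj O))⟦n⟧ := (unitQ j hj O)⟦n⟧'
    let ιc := (ObjectProperty.ι (DCoh.IsQCohD (X := Y))).commShiftIso n
    have hφ : IsIso ((restrictD j).map φ.hom) := by
      have e1 : φ.hom ≫ ιc.hom.app _ = ιc.hom.app _ ≫ ((unitQ j hj O).hom)⟦n⟧' :=
        ιc.hom.naturality (unitQ j hj O)
      have e2 : (restrictD j).map φ.hom ≫ (restrictD j).map (ιc.hom.app _) =
          (restrictD j).map (ιc.hom.app _) ≫ (restrictD j).map (((unitQ j hj O).hom)⟦n⟧') := by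
        rw [← Functor.map_comp, e1, Functor.map_comp]
      have e3 : IsIso ((restrictD j).map (((unitQ j hj O).hom)⟦n⟧')) :=
        ((NatIso.isIso_map_iff ((restrictD j).commShiftIso n) (unitQ j hj O).hom)).2
          (by
            have := isIso_restrictD_unitQ j (hj := hj) O
            exact Functor.map_isIso (shiftFunctor _ n) ((restrictD j).map (unitQ j hj O).hom))
      have e4 : IsIso ((restrictD j).map φ.hom ≫ (restrictD j).map (ιc.hom.app _)) := by
        rw [e2]
        infer_instance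
      exact IsIso.of_isIso_comp_right _ ((restrictD j).map (ιc.hom.app _))
    have h2 : IsIso (θ.app (((Rq j hj).obj ((restQ j).obj O))⟦n⟧)) :=
      (isIso_app_iff j hF hF' θ φ (c₀ - n) (isGE_shift c₀ n hO)
        (isGE_shift c₀ n (isGE_unitQ j O c₀ hO)) hφ).1 (hθ n)
    obtain ⟨_, _⟩ := isTriang_ψ j hj
    let e : (restQ j).obj O ≅ (G R).obj (sg R 0 R) := (DCoh.IsQCohD (X := Spec R)).isoMk eO
    let e' : ((Rq j hj).obj ((restQ j).obj O))⟦n⟧ ≅ (ψ j hj).obj ((sg R 0 R)⟦n⟧) :=
      (shiftFunctor _ n).mapIso ((Rq j hj).mapIso e) ≪≫ (((ψ j hj).commShiftIso n).app _).symm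
    exact (NatTrans.isIso_app_iff_of_iso θ e').1 h2
  obtain ⟨M, ⟨e⟩⟩ := (Functor.EssSurj.mem_essImage (F := G R) ((restQ j).obj K))
  have h2 : M.IsGE c := isGE_of_tilde M c (by
    have h3 : (TStructure.t : Triangulated.TStructure (DCoh.D (Spec R))).IsGE
        ((DCoh.IsQCohD (X := Spec R)).ι.obj ((restQ j).obj K)) c :=
      PerfA.ExactD.isGE_map (Scheme.Modules.restrictFunctor j) K.obj c
    exact (TStructure.t : Triangulated.TStructure (DCoh.D (Spec R))).isGE_of_iso
      ((DCoh.IsQCohD (X := Spec R)).ι.mapIso e).symm c)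
  have h4 : IsIso (θ.app ((Rq j hj).obj ((restQ j).obj K))) :=
    (NatTrans.isIso_app_iff_of_iso θ ((Rq j hj).mapIso e)).1
      (PerfC.IsoLocus.isIso_app (τ j θ hj) (isoLocus_isGE j hF hF' θ h1 M c))
  exact (isIso_app_iff j hF hF' θ (unitQ j hj K) c hK (isGE_unitQ j K c hK)
    (isIso_restrictD_unitQ j K)).2 h4

end Groth.Agent.Dual.H363.LocalIso
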