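import Groth.Agent.Dual.H363.Final
import Groth.Agent.Dual.H379.TwistMain

/-!
# `f^! K ≅ Lf^* K ⊗ f^! O_Y` on `D^+_QCoh(O_Y)` for a perfect morphism `f`

Combination of `Dual.H379.TwistMain.θ : Lp^*(-) ⊗ a(O) ⟶ a(-)` with `Final.nonempty_iso`.
-/

set_option autoImplicit false

universe u

open CategoryTheory CategoryTheory.Limits MonoidalCategory AlgebraicGeometry

attribute [local instance] HasDerivedCategory.standard

open scoped Groth.Agent.Dcoh.MonCat Groth.Agent.Dcoh.ModD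

namespace Groth.Agent.Dual.H363.Main

variable {X Y : Scheme.{u}} [IsNoetherian Y] {f : X ⟶ Y} [LocallyOfFiniteType f]
  (hf : MoreMor.IsPerfectMor f) (c : DEt.Compactification f) [DCoh.HasRpush c.fbar]
  (hc : DCoh.RpushPreservesQCoh c.fbar) (a : DCoh.DQCoh Y ⥤ DCoh.DQCoh c.Xbar)
  (adj : DCoh.RpushQ c.fbar hc ⊣ a)

include hf adj in
theorem main (O : DCoh.DQCoh Y) (hO : Nonempty (O.obj ≅ DCoh.inD Y (Coh.structureModule Y)))
    [DCoh.HasLpull f] (E : CochainComplex X.Modules ℤ)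
    (hE : Nonempty (DCoh.toD X E ≅ (Dual3.shriekC c a).obj O)) [DCoh.HasLTensorCx E] :
    Nonempty (Dual3.bddι Y ⋙ Dual3.shriekC c a ≅
      Dual3.bddι Y ⋙ ObjectProperty.ι _ ⋙ DCoh.Lpull f ⋙ DCoh.LTensorCx E) := by
  obtain ⟨eO⟩ := hO
  obtain ⟨eE⟩ := hE
  have hL := Dcoh.DerPull.hasLpull c.fbar
  let e2 : (𝟙_ (DCoh.DQCoh Y)) ≅ O :=
    ObjectProperty.isoMk _ ((Dcoh.DualX.unitIso Y).symm ≪≫ eO.symm)
  let θ := Functor.whiskerRight (Dual.H379.TwistMain.θ c.fbar hc adj)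
    (ObjectProperty.ι (DCoh.IsQCohD (X := c.Xbar)))
  have hθ : ∀ n : ℤ, IsIso (θ.app ((𝟙_ (DCoh.DQCoh Y))⟦n⟧)) := fun n => by
    have h1 := Dual.H379.TwistMain.isIso_θ_of_isPerfect c.fbar hc adj ((𝟙_ (DCoh.DQCoh Y))⟦n⟧)
      (LoccohB.RightAdj2.isPerfect_shift_DQCoh Dual.H379.DQMon.isPerfect_unit n)
    exact Functor.map_isIso (ObjectProperty.ι (DCoh.IsQCohD (X := c.Xbar)))
      ((Dual.H379.TwistMain.θ c.fbar hc adj).app ((𝟙_ (DCoh.DQCoh Y))⟦n⟧))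
  exact Dual.H363.Final.nonempty_iso hf c hc a adj (𝟙_ (DCoh.DQCoh Y)) (Dcoh.DualX.unitIso Y).symm θ hθ
    E ⟨eE ≪≫ (Dual3.shriekC c a).mapIso e2.symm⟩

end Groth.Agent.Dual.H363.Main
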