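import Groth.Agent.PerfA.BddDev
import Groth.Agent.PerfA.Hocolim
import Groth.Agent.S1034
import Mathlib.CategoryTheory.Limits.Constructions.EventuallyConstant

/-!
# A bounded below object of the derived category is the homotopy colimit of its truncations

`isHocolim_trunc`: if `A` has exact sequential colimits and the homology functors of `D(A)` preserve countable
coproducts, then every `K` in `D(A)` is the homotopy colimit of the sequence `τ_{<a+n} K`.
-/

set_option autoImplicit false

open CategoryTheory Category Limits Pretriangulated DerivedCategory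
open Groth.Agent.PerfA.Hocolim

namespace Groth.Agent.Dual.H363.TruncHocolim

universe w v u

variable {A : Type u} [Category.{v} A] [Abelian A] [HasDerivedCategory.{w} A]

/-- The sequence `τ_{<a+n} K`. -/
noncomputable def truncSeq (K : DerivedCategory A) (a : ℤ) : ℕ ⥤ DerivedCategory A where
  obj n := (TStructure.t.truncLT (a + n)).obj K
  map {m n} f := (TStructure.t.natTransTruncLTOfLE (a + m) (a + n)
    (by have := leOfHom f; lia)).app K
  map_id n := TStructure.t.natTransTruncLTOfLE_refl_app (a + n) K
  map_comp {l m n} f g := (TStructure.t.natTransTruncLTOfLE_trans_app (a + l) (a + m) (a + n)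
    (by have := leOfHom f; lia) (by have := leOfHom g; lia) K).symm

/-- The maps `τ_{<a+n} K ⟶ K`. -/
noncomputable def truncι (K : DerivedCategory A) (a : ℤ) (n : ℕ) : (truncSeq K a).obj n ⟶ K :=
  (TStructure.t.truncLTι (a + n)).app K

lemma map_truncι (K : DerivedCategory A) (a : ℤ) {m n : ℕ} (f : m ⟶ n) :
    (truncSeq K a).map f ≫ truncι K a n = truncι K a m :=
  TStructure.t.natTransTruncLTOfLE_ι_app (a + m) (a + n) (by have := leOfHom f; lia) K

lemma isIso_homology_truncι (K : DerivedCategory A) (a : ℤ) (n : ℕ) (q : ℤ) (h : q < a + n) :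
    IsIso ((homologyFunctor A q).map (truncι K a n)) :=
  CohtopB.DTrunc.isIso_homology_map_truncLTι K (a + n) q h

lemma isIso_homology_map (K : DerivedCategory A) (a : ℤ) {m n : ℕ} (f : m ⟶ n) (q : ℤ) (h : q < a + m) :
    IsIso ((homologyFunctor A q).map ((truncSeq K a).map f)) := by
  have h1 := isIso_homology_truncι K a m q h
  have h2 := isIso_homology_truncι K a n q (by have := leOfHom f; lia)
  have h3 := congrArg (homologyFunctor A q).map (map_truncι K a f)
  rw [Functor.map_comp] at h3
  exact IsIso.of_isIso_fac_right h3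

instance isGE_truncSeq (K : DerivedCategory A) (a b : ℤ) [K.IsGE b] (n : ℕ) :
    ((truncSeq K a).obj n).IsGE b := PerfA.BddDev.isGE_truncLT K (a + n) b

instance isLE_truncSeq (K : DerivedCategory A) (a : ℤ) (n : ℕ) :
    ((truncSeq K a).obj n).IsLE (a + n - 1) :=
  TStructure.t.isLE_truncLT_obj K (a + n) (a + n - 1)

theorem isHocolim_trunc [HasColimitsOfShape (Discrete ℕ) (DerivedCategory A)]
    [HasColimitsOfShape ℕ A] [HasExactColimitsOfShape ℕ A]
    [∀ q, PreservesColimitsOfShape (Discrete ℕ) (homologyFunctor A q)]
    (K : DerivedCategory A) (a : ℤ) :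
    DerLim.IsHocolim (truncSeq K a).obj (tr (truncSeq K a)) K (truncι K a) := by
  obtain ⟨L, j, φ, hL, hφ⟩ := exists_hocolim_map (truncSeq K a) (truncι K a)
    (fun n => map_truncι K a _)
  suffices h : IsIso φ from isHocolim_of_iso hL φ _ hφ
  rw [DerivedCategory.isIso_iff]
  intro q
  obtain ⟨e, he⟩ := S1034.result (homologyFunctor A q) _ _ L j hL
  let N : ℕ := (q + 1 - a).toNat
  let G : ℕ ⥤ A := Functor.ofSequence (fun n => (homologyFunctor A q).map (tr (truncSeq K a) n))
  have hG : G.IsEventuallyConstantFrom N := by
    intro m f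
    have hm := leOfHom f
    induction m, hm using Nat.le_induction with
    | base =>
      have : f = 𝟙 N := Subsingleton.elim _ _
      rw [this, G.map_id]
      infer_instance
    | succ m hm ih =>
      have : f = homOfLE hm ≫ homOfLE (Nat.le_succ m) := Subsingleton.elim _ _
      rw [this, G.map_comp]
      have h1 := ih (homOfLE hm)
      have h2 : G.map (homOfLE (Nat.le_succ m)) =
          (homologyFunctor A q).map (tr (truncSeq K a) m) :=
        Functor.ofSequence_map_homOfLE_succ _ m
      have h3 : IsIso ((homologyFunctor A q).map (tr (truncSeq K a) m)) :=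
        isIso_homology_map K a _ q (by omega)
      have h4 : IsIso (G.map (homOfLE (Nat.le_succ m))) := by
        rw [h2]
        exact h3
      exact IsIso.comp_isIso' h1 h4
  have h1 : IsIso (colimit.ι G N) := hG.isIso_ι_of_isColimit (colimit.isColimit G)
  have h2 : IsIso ((homologyFunctor A q).map (j N)) := by
    rw [← he N]
    exact IsIso.comp_isIso' h1 inferInstance
  have h3 := congrArg (homologyFunctor A q).map (hφ N)
  rw [Functor.map_comp] at h3
  have h4 := isIso_homology_truncι K a N q (by omega)
  exact IsIso.of_isIso_fac_left h3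

/-- Dévissage from bounded to bounded below objects. -/
theorem of_bounded [HasColimitsOfShape (Discrete ℕ) (DerivedCategory A)]
    [HasColimitsOfShape ℕ A] [HasExactColimitsOfShape ℕ A]
    [∀ q, PreservesColimitsOfShape (Discrete ℕ) (homologyFunctor A q)]
    (P : ObjectProperty (DerivedCategory A)) [P.IsTriangulated] [P.IsClosedUnderIsomorphisms]
    (hcop : ∀ (E : ℕ → DerivedCategory A) (a : ℤ), (∀ n, (E n).IsGE a) → (∀ n, P (E n)) → P (∐ E))
    (K : DerivedCategory A) (a : ℤ) [K.IsGE a]
    (hP : ∀ (L : DerivedCategory A) (b : ℤ), L.IsGE a → L.IsLE b → P L) : P K := by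
  obtain ⟨c, hc⟩ := isHocolim_trunc K a
  have h : P (∐ (truncSeq K a).obj) :=
    hcop _ a (fun n => inferInstance) (fun n => hP _ (a + n - 1) inferInstance inferInstance)
  exact P.ext_of_isTriangulatedClosed₃ _ hc h h

end Groth.Agent.Dual.H363.TruncHocolim
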