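import Groth.Agent.PerfC.IsoLocus
import Groth.Agent.PerfA.BddDev
import Groth.Agent.Dual.H363.TruncHocolim
import Mathlib.CategoryTheory.Triangulated.HomologicalFunctor
import Mathlib.Algebra.Homology.DerivedCategory.SingleTriangle

/-!
# Way-out dévissage for a natural transformation of triangulated functors out of `D(A)`

* `epi_app₃`, `mono_app₃`: the four lemmas for a natural transformation between homological functors;
* `isoLocus_single`: if `τ : F ⟶ F'` is a natural transformation between triangulated functors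
  `D(A) ⥤ D(B)` which are uniformly bounded above on the objects of `A`, and every object of `A` is a
  quotient of an object in the iso locus of `τ`, then `τ` is an isomorphism on (the shifts of) all objects of `A`;
* `isoLocus_bounded`: then it is an isomorphism on bounded objects;
* `isoLocus_plus`: and on bounded below objects, if `F`, `F'` commute with uniformly bounded below countable
  coproducts.

No compatibility of `τ` with the shifts is assumed.
-/

set_option autoImplicit false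

open CategoryTheory Category Limits Pretriangulated DerivedCategory
open Groth.Agent.PerfC.IsoLocus

namespace Groth.Agent.Dual.H363.WayOut

universe w v u w' v' u'

section Four

variable {C : Type u} [Category.{v} C] [HasZeroObject C] [HasShift C ℤ] [Preadditive C]
  [∀ n : ℤ, (shiftFunctor C n).Additive] [Pretriangulated C]
  {A : Type u'} [Category.{v'} A] [Abelian A]

lemma refine₂ (F : C ⥤ A) [F.IsHomological] (T : Triangle C) (hT : T ∈ distTriang C) {Z : A}
    (x : Z ⟶ F.obj T.obj₂) (hx : x ≫ F.map T.mor₂ = 0) :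
    ∃ (Z' : A) (π : Z' ⟶ Z) (_ : Epi π) (y : Z' ⟶ F.obj T.obj₁), π ≫ x = y ≫ F.map T.mor₁ :=
  (F.map_distinguished_exact T hT).exact_up_to_refinements x hx

lemma refine₃ (F : C ⥤ A) [F.IsHomological] (T : Triangle C) (hT : T ∈ distTriang C) {Z : A}
    (x : Z ⟶ F.obj T.obj₃) (hx : x ≫ F.map T.mor₃ = 0) :
    ∃ (Z' : A) (π : Z' ⟶ Z) (_ : Epi π) (y : Z' ⟶ F.obj T.obj₂), π ≫ x = y ≫ F.map T.mor₂ :=
  refine₂ F T.rotate (rot_of_distTriang _ hT) x hx

lemma refine₁ (F : C ⥤ A) [F.IsHomological] (T : Triangle C) (hT : T ∈ distTriang C) {Z : A}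
    (x : Z ⟶ F.obj (T.obj₁⟦(1 : ℤ)⟧)) (hx : x ≫ F.map (T.mor₁⟦(1 : ℤ)⟧') = 0) :
    ∃ (Z' : A) (π : Z' ⟶ Z) (_ : Epi π) (y : Z' ⟶ F.obj T.obj₃), π ≫ x = y ≫ F.map T.mor₃ := by
  refine refine₂ F T.rotate.rotate (rot_of_distTriang _ (rot_of_distTriang _ hT)) x ?_
  change x ≫ F.map (-T.mor₁⟦(1 : ℤ)⟧') = 0
  rw [F.map_neg, Preadditive.comp_neg, hx, neg_zero]

variable {F F' : C ⥤ A} [F.IsHomological] [F'.IsHomological] (τ : F ⟶ F')

/-- The four lemma (epi version). -/
lemma epi_app₃ (T : Triangle C) (hT : T ∈ distTriang C) (h₂ : Epi (τ.app T.obj₂))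
    (h₁' : Epi (τ.app (T.obj₁⟦(1 : ℤ)⟧))) (h₂' : Mono (τ.app (T.obj₂⟦(1 : ℤ)⟧))) :
    Epi (τ.app T.obj₃) := by
  rw [epi_iff_surjective_up_to_refinements]
  intro Z g₁
  obtain ⟨Z₁, π₁, _, f₂, e₁⟩ := surjective_up_to_refinements_of_epi (τ.app (T.obj₁⟦(1 : ℤ)⟧))
    (g₁ ≫ F'.map T.mor₃)
  have e₂ : f₂ ≫ F.map (T.mor₁⟦(1 : ℤ)⟧') = 0 := by
    rw [← cancel_mono (τ.app (T.obj₂⟦(1 : ℤ)⟧)), assoc, τ.naturality, ← reassoc_of% e₁,
      ← F'.map_comp, comp_distTriang_mor_zero₃₁ _ hT, F'.map_zero, comp_zero, comp_zero, zero_comp]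
  obtain ⟨Z₂, π₂, _, f₁, e₃⟩ := refine₁ F T hT f₂ e₂
  have e₄ : (π₂ ≫ π₁ ≫ g₁ - f₁ ≫ τ.app T.obj₃) ≫ F'.map T.mor₃ = 0 := by
    rw [Preadditive.sub_comp, assoc, assoc, assoc, ← τ.naturality, ← reassoc_of% e₃, e₁, sub_self]
  obtain ⟨Z₃, π₃, _, g₀, e₅⟩ := refine₃ F' T hT _ e₄
  obtain ⟨Z₄, π₄, _, f₀, e₆⟩ := surjective_up_to_refinements_of_epi (τ.app T.obj₂) g₀
  refine ⟨Z₄, π₄ ≫ π₃ ≫ π₂ ≫ π₁, inferInstance, π₄ ≫ π₃ ≫ f₁ + f₀ ≫ F.map T.mor₂, ?_⟩
  rw [Preadditive.add_comp, assoc, assoc, assoc, assoc, assoc, assoc, τ.naturality, ← reassoc_of% e₆, ← e₅,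
    Preadditive.comp_sub, Preadditive.comp_sub]
  abel

/-- The four lemma (mono version). -/
lemma mono_app₃ (T : Triangle C) (hT : T ∈ distTriang C) (h₁ : Epi (τ.app T.obj₁))
    (h₂ : Mono (τ.app T.obj₂)) (h₁' : Mono (τ.app (T.obj₁⟦(1 : ℤ)⟧))) :
    Mono (τ.app T.obj₃) := by
  rw [Preadditive.mono_iff_cancel_zero]
  intro Z x hx
  have e₁ : x ≫ F.map T.mor₃ = 0 := by
    rw [← cancel_mono (τ.app (T.obj₁⟦(1 : ℤ)⟧)), assoc, τ.naturality, reassoc_of% hx, zero_comp, zero_comp]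
  obtain ⟨Z₁, π₁, _, f₁, e₂⟩ := refine₃ F T hT x e₁
  have e₃ : (f₁ ≫ τ.app T.obj₂) ≫ F'.map T.mor₂ = 0 := by
    rw [assoc, ← τ.naturality, ← reassoc_of% e₂, hx, comp_zero]
  obtain ⟨Z₂, π₂, _, g₀, e₄⟩ := refine₂ F' T hT _ e₃
  obtain ⟨Z₃, π₃, _, f₀, e₅⟩ := surjective_up_to_refinements_of_epi (τ.app T.obj₁) g₀
  have e₆ : f₀ ≫ F.map T.mor₁ = π₃ ≫ π₂ ≫ f₁ := by
    rw [← cancel_mono (τ.app T.obj₂), assoc, assoc, assoc, τ.naturality, ← reassoc_of% e₅, e₄]
  rw [← cancel_epi π₁, comp_zero, e₂, ← cancel_epi π₂, ← cancel_epi π₃, comp_zero, comp_zero,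
    ← reassoc_of% e₆, ← F.map_comp, comp_distTriang_mor_zero₁₂ _ hT, F.map_zero, comp_zero]

end Four

section

variable {A : Type u} [Category.{v} A] [Abelian A] [HasDerivedCategory.{w} A]
  {B : Type u'} [Category.{v'} B] [Abelian B] [HasDerivedCategory.{w'} B]
  {F F' : DerivedCategory A ⥤ DerivedCategory B} (hF : IsTriang F) (hF' : IsTriang F') (τ : F ⟶ F')

/-- `τ` is an isomorphism in cohomological degrees `≥ m` on objects of `A`. -/
def IsoAbove (m : ℤ) : Prop := ∀ (N : A) (n q : ℤ), m ≤ q + n →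
  IsIso ((homologyFunctor B q).map (τ.app (((singleFunctor A 0).obj N)⟦n⟧)))

lemma isLE_shift_obj (hF : IsTriang F) (K : DerivedCategory A) (b n : ℤ) (h : (F.obj K).IsLE b) :
    (F.obj (K⟦n⟧)).IsLE (b - n) := by
  obtain ⟨_, _⟩ := hF
  have h1 : (TStructure.t : Triangulated.TStructure (DerivedCategory B)).IsLE
      ((F ⋙ shiftFunctor (DerivedCategory B) n).obj K) (b - n) :=
    (TStructure.t : Triangulated.TStructure (DerivedCategory B)).isLE_shift _ b n (b - n) (by ring)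
  exact (TStructure.t : Triangulated.TStructure (DerivedCategory B)).isLE_of_iso
    ((F.commShiftIso n).symm.app K) (b - n)

include hF hF' in
lemma isoAbove_of_isLE (b : ℤ) (hb : ∀ N : A, (F.obj ((singleFunctor A 0).obj N)).IsLE b)
    (hb' : ∀ N : A, (F'.obj ((singleFunctor A 0).obj N)).IsLE b) : IsoAbove τ (b + 1) := by
  intro N n q hq
  have h1 := isLE_shift_obj hF _ b n (hb N)
  have h2 := isLE_shift_obj hF' _ b n (hb' N)
  exact (isZero_of_isLE _ (b - n) q (by lia)).isIso (isZero_of_isLE _ (b - n) q (by lia)) _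

include hF hF' in
lemma isoAbove_step (hP : ∀ N : A, ∃ (P : A) (π : P ⟶ N), Epi π ∧ isoLocus τ ((singleFunctor A 0).obj P))
    (m : ℤ) (hm : IsoAbove τ (m + 1)) : IsoAbove τ m := by
  obtain ⟨_, _⟩ := hF
  obtain ⟨_, _⟩ := hF'
  have hepi : ∀ (N : A) (n q : ℤ), m ≤ q + n →
      Epi ((homologyFunctor B q).map (τ.app (((singleFunctor A 0).obj N)⟦n⟧))) := by
    intro N n q hq
    obtain ⟨P, π, hπ, hPl⟩ := hP N
    let S : ShortComplex A := ShortComplex.mk (kernel.ι π) π (kernel.condition π)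
    have hS : S.ShortExact := { exact := ShortComplex.exact_kernel π }
    have hT' := Triangle.shift_distinguished _ hS.singleTriangle_distinguished n
    let σ := Functor.whiskerRight τ (homologyFunctor B q)
    have := hPl n
    have := hPl (n + 1)
    have h1 : IsIso (σ.app ((((singleFunctor A 0).obj (kernel π))⟦n⟧)⟦(1 : ℤ)⟧)) :=
      (NatTrans.isIso_app_iff_of_iso σ ((shiftFunctorAdd (DerivedCategory A) n 1).app _)).1
        (hm (kernel π) (n + 1) q (by lia))
    have h2 : IsIso (τ.app ((((singleFunctor A 0).obj P)⟦n⟧)⟦(1 : ℤ)⟧)) :=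
      (NatTrans.isIso_app_iff_of_iso τ ((shiftFunctorAdd (DerivedCategory A) n 1).app _)).1
        (hPl (n + 1))
    refine epi_app₃ σ _ hT' ?_ ?_ ?_
    · change Epi ((homologyFunctor B q).map (τ.app (((singleFunctor A 0).obj P)⟦n⟧)))
      infer_instance
    · change Epi (σ.app ((((singleFunctor A 0).obj (kernel π))⟦n⟧)⟦(1 : ℤ)⟧))
      infer_instance
    · change Mono ((homologyFunctor B q).map (τ.app ((((singleFunctor A 0).obj P)⟦n⟧)⟦(1 : ℤ)⟧)))
      infer_instance
  intro N n q hq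
  obtain ⟨P, π, hπ, hPl⟩ := hP N
  let S : ShortComplex A := ShortComplex.mk (kernel.ι π) π (kernel.condition π)
  have hS : S.ShortExact := { exact := ShortComplex.exact_kernel π }
  have hT' := Triangle.shift_distinguished _ hS.singleTriangle_distinguished n
  let σ := Functor.whiskerRight τ (homologyFunctor B q)
  have := hPl n
  have h1 : IsIso (σ.app ((((singleFunctor A 0).obj (kernel π))⟦n⟧)⟦(1 : ℤ)⟧)) :=
    (NatTrans.isIso_app_iff_of_iso σ ((shiftFunctorAdd (DerivedCategory A) n 1).app _)).1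
      (hm (kernel π) (n + 1) q (by lia))
  have hmono : Mono (σ.app (((singleFunctor A 0).obj N)⟦n⟧)) := by
    refine mono_app₃ σ _ hT' ?_ ?_ ?_
    · exact hepi (kernel π) n q hq
    · change Mono ((homologyFunctor B q).map (τ.app (((singleFunctor A 0).obj P)⟦n⟧)))
      infer_instance
    · change Mono (σ.app ((((singleFunctor A 0).obj (kernel π))⟦n⟧)⟦(1 : ℤ)⟧))
      infer_instance
  have hepi' : Epi (σ.app (((singleFunctor A 0).obj N)⟦n⟧)) := hepi N n q hq
  exact isIso_of_mono_of_epi (σ.app (((singleFunctor A 0).obj N)⟦n⟧))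

include hF hF' in
/-- **Way-out lemma.** -/
theorem isoLocus_single (b : ℤ) (hb : ∀ N : A, (F.obj ((singleFunctor A 0).obj N)).IsLE b)
    (hb' : ∀ N : A, (F'.obj ((singleFunctor A 0).obj N)).IsLE b)
    (hP : ∀ N : A, ∃ (P : A) (π : P ⟶ N), Epi π ∧ isoLocus τ ((singleFunctor A 0).obj P)) (N : A) :
    isoLocus τ ((singleFunctor A 0).obj N) := by
  have key : ∀ k : ℕ, IsoAbove τ (b + 1 - k) := by
    intro k
    induction k with
    | zero => simpa using isoAbove_of_isLE hF hF' τ b hb hb'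
    | succ k ih =>
      refine isoAbove_step hF hF' τ hP _ ?_
      have : b + 1 - ((k + 1 : ℕ) : ℤ) + 1 = b + 1 - k := by push_cast; ring
      rw [this]
      exact ih
  intro n
  rw [DerivedCategory.isIso_iff]
  intro q
  exact key (b + 1 - (q + n)).toNat N n q (by omega)

include hF hF' in
lemma isoLocus_singleFunctor (h : ∀ N : A, isoLocus τ ((singleFunctor A 0).obj N)) (N : A) (j : ℤ) :
    isoLocus τ ((singleFunctor A j).obj N) := by
  have := isoLocus_isTriangulated hF hF' τ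
  exact (isoLocus τ).prop_of_iso
    (((singleFunctors A).shiftIso (-j) j 0 (by simp)).app N) ((isoLocus τ).le_shift (-j) _ (h N))

include hF hF' in
/-- dévissage to bounded objects. -/
theorem isoLocus_bounded (h : ∀ N : A, isoLocus τ ((singleFunctor A 0).obj N)) (K : DerivedCategory A)
    (a b : ℤ) [K.IsGE a] [K.IsLE b] : isoLocus τ K := by
  have := isoLocus_isTriangulated hF hF' τ
  refine PerfA.BddDev.devissage (⊤ : ObjectProperty A) (isoLocus τ)
    (fun e h => (isoLocus τ).prop_of_iso e h)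
    (fun N n _ => isoLocus_singleFunctor hF hF' τ h N n)
    (fun T hT h₁ h₃ => (isoLocus τ).ext_of_isTriangulatedClosed₂ T hT h₁ h₃) K a b (fun _ => trivial)

include hF hF' in
/-- dévissage to bounded below objects. -/
theorem isoLocus_plus [HasColimitsOfShape (Discrete ℕ) (DerivedCategory A)]
    [HasColimitsOfShape ℕ A] [HasExactColimitsOfShape ℕ A]
    [∀ q, PreservesColimitsOfShape (Discrete ℕ) (homologyFunctor A q)]
    (h : ∀ N : A, isoLocus τ ((singleFunctor A 0).obj N))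
    (hcop : ∀ (E : ℕ → DerivedCategory A) (a : ℤ), (∀ n, (E n).IsGE a) →
      (∀ n, isoLocus τ (E n)) → isoLocus τ (∐ E))
    (K : DerivedCategory A) (a : ℤ) [K.IsGE a] : isoLocus τ K := by
  have := isoLocus_isTriangulated hF hF' τ
  exact TruncHocolim.of_bounded (isoLocus τ) hcop K a
    (fun L b _ _ => isoLocus_bounded hF hF' τ h L a b)

end

end Groth.Agent.Dual.H363.WayOut
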